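import Cfsg.Agent.H758.EPX.Sizes
import Cfsg.Agent.H173.EP.LineBound

/-!
# S5745, `k ≥ 2`: the bound for `|G : H|`
-/

set_option autoImplicit false
set_option linter.unusedSectionVars false

namespace Cfsg.Agent.H758.EPX

open Subgroup Cfsg.Agent.H284 Cfsg.Agent.H209.EPX MulAction

universe u

theorem ncard_Dg_le_pow {T : Type} [Group T] [Finite T] {k : ℕ} (hk : 0 < k) (hs : IsSimpleGroup T)
    (hna : ∃ a b : T, a * b ≠ b * a) : (Sub.Dg T k).ncard ≤ (k * Nat.card (MulAut T)) ^ (k - 1) := by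
  refine (Sub.ncard_Dg_le hs hna).trans ((Sub.sum_ok k _ hk).trans ?_)
  have ha : 0 < Nat.card (MulAut T) := Nat.card_pos
  generalize Nat.card (MulAut T) = a at ha ⊢
  by_cases hk1 : k = 1
  · subst hk1
    simp
  have hB : 1 + k / 2 * a ≤ k * a := by
    have h1 : 1 ≤ k - k / 2 := by omega
    have h2 : k * a = (k - k / 2) * a + k / 2 * a := by
      rw [← Nat.add_mul]
      congr 1
      omega
    rw [h2]
    have h3 : 1 ≤ (k - k / 2) * a := Nat.one_le_iff_ne_zero.2 (Nat.mul_ne_zero (by omega) ha.ne')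
    omega
  refine le_trans ?_ (Nat.pow_le_pow_left hB (k - 1))
  rw [Commute.add_pow (Commute.all _ _)]
  calc ∑ c ∈ Finset.Icc 1 (k / 2), (k - 1).choose (c - 1) * (c * a) ^ (k - c)
      ≤ ∑ c ∈ Finset.Icc 1 (k / 2), (k - 1).choose (c - 1) * (k / 2 * a) ^ (k - c) := by
        refine Finset.sum_le_sum fun c hc => ?_
        rw [Finset.mem_Icc] at hc
        exact Nat.mul_le_mul_left _ (Nat.pow_le_pow_left (Nat.mul_le_mul_right _ hc.2) _)
    _ = ∑ m ∈ (Finset.Icc 1 (k / 2)).image (fun c => c - 1), (k - 1).choose m * (k / 2 * a) ^ (k - 1 - m) := by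
        rw [Finset.sum_image]
        · refine Finset.sum_congr rfl fun c hc => ?_
          rw [Finset.mem_Icc] at hc
          congr 2
          omega
        · intro c hc d hd hcd
          simp only [Finset.coe_Icc, Set.mem_Icc] at hc hd
          simp only at hcd
          omega
    _ ≤ ∑ m ∈ Finset.range (k - 1 + 1), (k - 1).choose m * (k / 2 * a) ^ (k - 1 - m) := by
        apply Finset.sum_le_sum_of_subset
        intro m hm
        rw [Finset.mem_image] at hm
        obtain ⟨c, hc, rfl⟩ := hm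
        rw [Finset.mem_Icc] at hc
        rw [Finset.mem_range]
        omega
    _ = _ := by
        refine Finset.sum_congr rfl fun m _ => ?_
        rw [one_pow, one_mul, Nat.cast_id, mul_comm]

variable {G : Type u} [Group G] {H N : Subgroup G} {T : Type} [Group T] {k : ℕ} {e : N ≃* (Fin k → T)}

theorem EPS.M_ne_bot (h : EPS H N e) {x : G} (hx : x ∉ H) : H ⊓ cj x H ≠ ⊥ := by
  intro h0
  have h1 : ∀ g ∈ H, g ≠ 1 → zpowers g = H := by
    intro g hg hg1
    rcases h.ep.two x hx (zpowers g) (by rw [h0]; exact bot_le) (Subgroup.zpowers_le.2 hg) with h2 | h2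
    · rw [h0, Subgroup.zpowers_eq_bot] at h2
      exact absurd h2 hg1
    · exact h2
  obtain ⟨a, b, hab⟩ := h.nab
  have ha1 : inj e ⟨0, h.pos⟩ a ≠ 1 := by
    intro h2
    have h3 : a = 1 := inj_injective e ⟨0, h.pos⟩ (h2.trans (map_one _).symm)
    apply hab
    rw [h3, one_mul, mul_one]
  have h2 := h1 _ (h.le (inj_mem_N e ⟨0, h.pos⟩ a)) ha1
  have h3 : inj e ⟨0, h.pos⟩ b ∈ zpowers (inj e ⟨0, h.pos⟩ a) := by
    rw [h2]
    exact h.le (inj_mem_N e ⟨0, h.pos⟩ b)
  obtain ⟨n, hn⟩ := Subgroup.mem_zpowers_iff.1 h3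
  apply hab
  apply inj_injective e ⟨0, h.pos⟩
  rw [map_mul, map_mul, ← hn]
  exact (Commute.refl _).zpow_right n

/-- **the line bound** -/
theorem tk_gen [Finite G] (h : EP H) {R D : ℕ} (hne : ∀ x, x ∉ H → H ⊓ cj x H ≠ ⊥)
    (hR : {M : Subgroup G | ∃ x, x ∉ H ∧ M = H ⊓ cj x H}.ncard ≤ R)
    (hD : ∀ x, x ∉ H → Nat.card H ≤ D * Nat.card (H ⊓ cj x H : Subgroup G)) :
    Nat.card G ≤ (1 + R * (2 * D)) * Nat.card H := by
  have hf := h.faithful
  have hE := h.toEPA
  have hst : ∀ x : G, stabilizer G (x : G ⧸ H) = cj x H := by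
    intro x
    have h1 : (x : G ⧸ H) = x • ((1 : G) : G ⧸ H) := by
      rw [MulAction.Quotient.smul_coe, smul_eq_mul, mul_one]
    rw [h1, stab_smul, MulAction.stabilizer_quotient]
  have hD' : ∀ p c : G ⧸ H, c ≠ p → Nat.card (stabilizer G p) ≤ D * Nat.card (stabilizer G p ⊓ stabilizer G c : Subgroup G) := by
    intro p c hcp
    induction p using QuotientGroup.induction_on with
    | H x =>
      induction c using QuotientGroup.induction_on with
      | H y =>
        rw [hst, hst]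
        have hy : x⁻¹ * y ∉ H := by
          intro e
          apply hcp
          exact (QuotientGroup.eq.2 e).symm
        have e1 : cj x (H ⊓ cj (x⁻¹ * y) H) = cj x H ⊓ cj y H := by
          rw [cj_inf, ← cj_mul, mul_inv_cancel_left]
        rw [← e1, card_cj, card_cj]
        exact hD _ hy
  have hxH : ∀ x : G, (x : G ⧸ H) ≠ ((1 : G) : G ⧸ H) ↔ x ∉ H := by
    intro x
    rw [Ne, eq_comm, QuotientGroup.eq, inv_one, one_mul]
  have h1 := Cfsg.Agent.H173.EP.card_le_line hE hD' ((1 : G) : G ⧸ H) (by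
    intro b hb
    induction b using QuotientGroup.induction_on with
    | H x =>
      rw [hst, hst, cj_one]
      exact hne x ((hxH x).1 hb))
  have h2 : EPA.lines G ((1 : G) : G ⧸ H) ⊆ {M : Subgroup G | ∃ x, x ∉ H ∧ M = H ⊓ cj x H} := by
    rintro _ ⟨b, hb, rfl⟩
    induction b using QuotientGroup.induction_on with
    | H x =>
      refine ⟨x, (hxH x).1 hb, ?_⟩
      rw [hst, hst, cj_one]
  have h3 : (EPA.lines G ((1 : G) : G ⧸ H)).ncard ≤ R := (Set.ncard_le_ncard h2 (Set.toFinite _)).trans hR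
  have h4 := Subgroup.card_mul_index H
  rw [← h4, mul_comm, Subgroup.index]
  exact Nat.mul_le_mul_right _ (h1.trans (Nat.add_le_add_left (Nat.mul_le_mul_right _ h3) 1))

/-- **TK**: no two-point stabiliser meets `N` trivially -/
theorem EPS.tk [Finite G] (h : EPS H N e) (hreg : ∀ x, x ∉ H → Dt e H x ≠ ⊥) {L D : ℕ}
    (hL : (Cfsg.Agent.H273.EPU.LocK T \ {⊤}).ncard ≤ L) (hD1 : Nat.card T ^ k ≤ 6 ^ k * D)
    (hD2 : Nat.card T ^ (k - 1) ≤ D) :
    Nat.card G ≤ (1 + (L ^ k + (k * Nat.card (MulAut T)) ^ (k - 1)) * (2 * D)) * Nat.card H := by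
  have hfin : Finite T := Finite.of_injective _ (inj_injective e ⟨0, h.pos⟩)
  refine tk_gen h.ep (fun x hx => EPS.M_ne_bot h hx) ?_ ?_
  · refine le_trans ((Set.ncard_le_ncard ?_ (Set.toFinite _)).trans ((Set.ncard_union_le _ _).trans
      (add_le_add (EPS.ncard_le h) (EPS.ncard_diag_le h))))
      (add_le_add (Nat.pow_le_pow_left hL k) (ncard_Dg_le_pow h.pos h.simple h.nab))
    rintro M ⟨x, hx, hM⟩
    by_cases h0 : ∃ i, Kt e H x i ≠ ⊥
    · exact Or.inl ⟨x, hx, hM, h0⟩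
    · push Not at h0
      exact Or.inr ⟨x, hx, hM, h0, hreg x hx⟩
  · intro x hx
    by_cases h0 : ∃ i, Kt e H x i ≠ ⊥
    · obtain ⟨i, hi⟩ := h0
      have h1 := EPS.ii_card h hx hi
      have h2 : 0 < 6 ^ k := by positivity
      apply Nat.le_of_mul_le_mul_left _ h2
      calc 6 ^ k * Nat.card H ≤ _ := h1
        _ ≤ 6 ^ k * D * Nat.card (H ⊓ cj x H : Subgroup G) := Nat.mul_le_mul_right _ hD1
        _ = _ := by ring
    · push Not at h0
      exact (EPS.iii_card h hx h0 (hreg x hx)).trans (Nat.mul_le_mul_right _ hD2)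

/-- **TK** for `k ≤ 5` -/
theorem EPS.tk_five [Finite G] (h : EPS H N e) (hsch : Cfsg.Agent.Schreier.Basic.Sch T) (hk : k ≤ 5) {L D : ℕ}
    (hL : (Cfsg.Agent.H273.EPU.LocK T \ {⊤}).ncard ≤ L) (hD1 : Nat.card T ^ k ≤ 6 ^ k * D)
    (hD2 : Nat.card T ^ (k - 1) ≤ D) :
    Nat.card G ≤ (1 + (L ^ k + (k * Nat.card (MulAut T)) ^ (k - 1)) * (2 * D)) * Nat.card H :=
  EPS.tk h (fun _ hx => EPS.Dt_ne_bot h hsch hk hx) hL hD1 hD2

/-- **TK** for `k = 2` -/
theorem EPS.tk_two {e : N ≃* (Fin 2 → T)} [Finite G] (h : EPS H N e) (hsch : Cfsg.Agent.Schreier.Basic.Sch T) {L D : ℕ}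
    (hL : (Cfsg.Agent.H273.EPU.LocK T \ {⊤}).ncard ≤ L) (hD1 : Nat.card T ^ 2 ≤ 36 * D) (hD2 : Nat.card T ≤ D) :
    Nat.card G ≤ (1 + (L ^ 2 + Nat.card (MulAut T)) * (2 * D)) * Nat.card H := by
  have hfin : Finite T := Finite.of_injective _ (inj_injective e ⟨0, h.pos⟩)
  refine tk_gen h.ep (fun x hx => EPS.M_ne_bot h hx) ?_ ?_
  · exact (EPS.ncard_total h hsch (by norm_num)).trans
      (add_le_add (Nat.pow_le_pow_left hL 2) (Sub.ncard_Dg_two h.simple h.nab))
  · intro x hx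
    by_cases h0 : ∃ i, Kt e H x i ≠ ⊥
    · obtain ⟨i, hi⟩ := h0
      have h1 := EPS.ii_card h hx hi
      have h2 : 0 < 6 ^ 2 := by positivity
      apply Nat.le_of_mul_le_mul_left _ h2
      calc 6 ^ 2 * Nat.card H ≤ _ := h1
        _ ≤ 36 * D * Nat.card (H ⊓ cj x H : Subgroup G) := Nat.mul_le_mul_right _ hD1
        _ = _ := by ring
    · push Not at h0
      refine (EPS.iii_card h hx h0 (EPS.Dt_ne_bot h hsch (by norm_num) hx)).trans (Nat.mul_le_mul_right _ ?_)
      simpa using hD2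

end Cfsg.Agent.H758.EPX
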