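import Cfsg.Agent.H758.EPX.Str
import Cfsg.Agent.H273.EPU.Soc

/-!
# S5745, `k ≥ 2`: the number of two-point stabilisers `M` with `M ∩ T_i ≠ 1` is at most `|LocK T|^k`
-/

set_option autoImplicit false
set_option linter.unusedSectionVars false

namespace Cfsg.Agent.H758.EPX

open Subgroup Cfsg.Agent.H284 Cfsg.Agent.H209.EPX

universe u

variable {G : Type u} [Group G] {H N : Subgroup G} {T : Type} [Group T] {k : ℕ} {e : N ≃* (Fin k → T)}

theorem EPS.mem_LocK [Finite G] (h : EPS H N e) {x : G} (hx : x ∉ H) {i : Fin k} (hi : Kt e H x i ≠ ⊥) :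
    Kt e H x i ∈ Cfsg.Agent.H273.EPU.LocK T :=
  ⟨hi, fun Y hY hY0 _ ht => EPS.norm_le h hx i Y hY hY0 ht⟩

theorem EPS.ncard_le [Finite G] (h : EPS H N e) :
    {M : Subgroup G | ∃ x, x ∉ H ∧ M = H ⊓ cj x H ∧ ∃ i, Kt e H x i ≠ ⊥}.ncard ≤
      (Cfsg.Agent.H273.EPU.LocK T \ {⊤}).ncard ^ k := by
  classical
  have hpos := h.pos
  have hfin : Finite T := Finite.of_injective _ (inj_injective e ⟨0, hpos⟩)
  have hc : (Set.pi Set.univ (fun _ : Fin k => Cfsg.Agent.H273.EPU.LocK T \ {⊤})).ncard =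
      (Cfsg.Agent.H273.EPU.LocK T \ {⊤}).ncard ^ k := by
    rw [← Nat.card_coe_set_eq, ← Nat.card_coe_set_eq]
    rw [Nat.card_congr (Equiv.Set.univPi (fun _ : Fin k => Cfsg.Agent.H273.EPU.LocK T \ {⊤}))]
    rw [Nat.card_fun]
    simp
  rw [← hc]
  refine Set.ncard_le_ncard_of_injOn (fun M i => M.comap (inj e i)) ?_ ?_ (Set.toFinite _)
  · rintro _ ⟨x, hx, rfl, i, hi⟩
    intro j _
    have h1 : (H ⊓ cj x H).comap (inj e j) = Kt e H x j := by
      ext t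
      exact ⟨fun ht => (mem_inf.1 ht).2, fun ht => ⟨h.le (inj_mem_N e j t), ht⟩⟩
    show (H ⊓ cj x H).comap (inj e j) ∈ _
    rw [h1]
    exact ⟨EPS.mem_LocK h hx (EPS.Kt_ne h hx hi j), EPS.Kt_ne_top h hx j⟩
  · rintro _ ⟨x, hx, rfl, i, hi⟩ _ ⟨y, hy, rfl, i', hi'⟩ hxy
    apply EPS.eq_of_Kt h hx hy hi
    intro j
    have h1 : ∀ x : G, (H ⊓ cj x H).comap (inj e j) = Kt e H x j := by
      intro x
      ext t
      exact ⟨fun ht => (mem_inf.1 ht).2, fun ht => ⟨h.le (inj_mem_N e j t), ht⟩⟩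
    rw [← h1, ← h1]
    exact congrFun hxy j

end Cfsg.Agent.H758.EPX
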