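import Cfsg.Agent.H758.EPX.Sub

/-!
# The number of subdirect subgroups of `T^k` meeting all factors trivially
-/

set_option autoImplicit false
set_option linter.unusedSectionVars false

namespace Cfsg.Agent.H758.EPX.Sub

variable {T : Type*} [Group T] [Finite T] {k : ℕ}

/-- the subdirect subgroups meeting all factors trivially -/
def Dg (T : Type*) [Group T] (k : ℕ) : Set (Subgroup (Fin k → T)) :=
  {D | Sd D ∧ ∀ (i : Fin k) (t : T), Pi.mulSingle i t ∈ D → t = 1}

/-- admissible sets of representatives -/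
def ok (k : ℕ) : Finset (Finset (Fin k)) :=
  Finset.univ.filter fun R => 2 * R.card ≤ k ∧ ∀ i : Fin k, (i : ℕ) = 0 → i ∈ R

open Classical in
/-- the fixed points of `rep` -/
noncomputable def fx (D : Subgroup (Fin k → T)) : Finset (Fin k) := Finset.univ.filter fun i => rep D i = i

theorem mem_fx {D : Subgroup (Fin k → T)} {i : Fin k} : i ∈ fx D ↔ rep D i = i := by
  classical
  simp [fx]

theorem fx_ok (hs : IsSimpleGroup T) (hna : ∃ a b : T, a * b ≠ b * a) {D : Subgroup (Fin k → T)} (hD : D ∈ Dg T k) :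
    fx D ∈ ok k := by
  classical
  rw [ok, Finset.mem_filter]
  refine ⟨Finset.mem_univ _, ?_, ?_⟩
  · choose g hg hgi using fun i : {i // i ∈ fx D} => exists_ne_rep hs hna hD.1 hD.2 (mem_fx.mp i.2)
    have hinj : Function.Injective g := by
      intro a b hab
      apply Subtype.ext
      rw [← hgi a, ← hgi b, hab]
    have hle : (fx D).card ≤ (fx D)ᶜ.card := by
      rw [← Fintype.card_coe (fx D)]
      calc Fintype.card {i // i ∈ fx D} = (Finset.univ.image g).card := by
            rw [Finset.card_image_of_injective _ hinj, Finset.card_univ]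
        _ ≤ (fx D)ᶜ.card := Finset.card_le_card (by
            intro j hj
            rw [Finset.mem_image] at hj
            obtain ⟨i, _, rfl⟩ := hj
            rw [Finset.mem_compl, mem_fx, hgi i]
            exact fun h => hg i h.symm)
    rw [Finset.card_compl, Fintype.card_fin] at hle
    have := Finset.card_le_univ (fx D)
    rw [Fintype.card_fin] at this
    omega
  · intro i hi
    rw [mem_fx]
    have h1 := rep_le D (Rel.refl D i)
    apply Fin.ext
    have h2 : ((rep D i : Fin k) : ℕ) ≤ i := h1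
    omega

/-- **the number of diagonal type subgroups** -/
theorem ncard_Dg_le (hs : IsSimpleGroup T) (hna : ∃ a b : T, a * b ≠ b * a) :
    (Dg T k).ncard ≤ ∑ R ∈ ok k, (R.card * Nat.card (MulAut T)) ^ (k - R.card) := by
  classical
  have : Fintype (MulAut T) := Fintype.ofFinite _
  let C := Σ R : {R // R ∈ ok k}, ({i : Fin k // i ∉ R.1} → {j : Fin k // j ∈ R.1} × MulAut T)
  have hcard : Fintype.card C = ∑ R ∈ ok k, (R.card * Nat.card (MulAut T)) ^ (k - R.card) := by
    rw [Fintype.card_sigma]
    simp only [Fintype.card_fun, Fintype.card_prod, Fintype.card_coe, Nat.card_eq_fintype_card]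
    rw [← Finset.sum_coe_sort (ok k) (fun R => (R.card * Fintype.card (MulAut T)) ^ (k - R.card))]
    refine Finset.sum_congr rfl fun R _ => ?_
    congr 1
    rw [Fintype.card_subtype_compl, Fintype.card_fin, Fintype.card_coe]
  rw [← hcard, ← Nat.card_eq_fintype_card, ← Nat.card_coe_set_eq]
  choose! α hα1 hα using fun (D : Subgroup (Fin k → T)) (h : Sd D) => exists_code hs hna h
  have hrep : ∀ (D : Dg T k) (i : Fin k), rep D.1 i ∈ fx D.1 := fun D i => mem_fx.mpr (rep_rep D.2.1 i)
  let F : Dg T k → C := fun D =>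
    ⟨⟨fx D.1, fx_ok hs hna D.2⟩, fun i => (⟨rep D.1 i.1, hrep D i.1⟩, α D.1 i.1)⟩
  refine Nat.card_le_card_of_injective F ?_
  -- recover `rep` and `α` from the code
  let rp : C → Fin k → Fin k := fun c i => if h : i ∈ c.1.1 then i else (c.2 ⟨i, h⟩).1
  let al : C → Fin k → MulAut T := fun c i => if h : i ∈ c.1.1 then 1 else (c.2 ⟨i, h⟩).2
  have h1 : ∀ (D : Dg T k) i, rp (F D) i = rep D.1 i := by
    intro D i
    by_cases h : i ∈ fx D.1
    · have : rp (F D) i = i := dif_pos h
      rw [this]
      exact (mem_fx.mp h).symm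
    · exact dif_neg h
  have h2 : ∀ (D : Dg T k) i, al (F D) i = α D.1 i := by
    intro D i
    by_cases h : i ∈ fx D.1
    · have : al (F D) i = 1 := dif_pos h
      rw [this]
      exact (hα1 D.1 D.2.1 i (mem_fx.mp h)).symm
    · exact dif_neg h
  intro D E hDE
  apply Subtype.ext
  ext f
  rw [hα D.1 D.2.1, hα E.1 E.2.1]
  have h3 : ∀ i, rep D.1 i = rep E.1 i := fun i => by rw [← h1, ← h1, hDE]
  have h4 : ∀ i, α D.1 i = α E.1 i := fun i => by rw [← h2, ← h2, hDE]
  simp only [h3, h4]

theorem ncard_Dg_two (hs : IsSimpleGroup T) (hna : ∃ a b : T, a * b ≠ b * a) :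
    (Dg T 2).ncard ≤ Nat.card (MulAut T) := by
  have h := ncard_Dg_le (k := 2) hs hna
  have h2 : ok 2 = {{0}} := by decide
  rw [h2, Finset.sum_singleton] at h
  simpa using h

theorem ncard_Dg_three (hs : IsSimpleGroup T) (hna : ∃ a b : T, a * b ≠ b * a) :
    (Dg T 3).ncard ≤ Nat.card (MulAut T) ^ 2 := by
  have h := ncard_Dg_le (k := 3) hs hna
  have h2 : ok 3 = {{0}} := by decide
  rw [h2, Finset.sum_singleton] at h
  simpa using h

/-- closed form -/
theorem sum_ok (k a : ℕ) (hk : 0 < k) : ∑ R ∈ ok k, (R.card * a) ^ (k - R.card) ≤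
    ∑ c ∈ Finset.Icc 1 (k / 2), (k - 1).choose (c - 1) * (c * a) ^ (k - c) := by
  classical
  have hmap : ∀ R ∈ ok k, R.card ∈ Finset.Icc 1 (k / 2) := by
    intro R hR
    rw [ok, Finset.mem_filter] at hR
    have h0 : (⟨0, hk⟩ : Fin k) ∈ R := hR.2.2 _ rfl
    have h1 : 0 < R.card := Finset.card_pos.mpr ⟨_, h0⟩
    rw [Finset.mem_Icc]
    omega
  rw [← Finset.sum_fiberwise_of_maps_to hmap]
  refine Finset.sum_le_sum fun c hc => ?_
  rw [Finset.mem_Icc] at hc
  have h1 : ∑ R ∈ (ok k).filter (fun R => R.card = c), (R.card * a) ^ (k - R.card) =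
      ((ok k).filter (fun R => R.card = c)).card * (c * a) ^ (k - c) := by
    rw [← smul_eq_mul, ← Finset.sum_const]
    refine Finset.sum_congr rfl fun R hR => ?_
    rw [(Finset.mem_filter.mp hR).2]
  rw [h1]
  refine Nat.mul_le_mul_right _ ?_
  -- sets of size `c` containing `0`
  have h2 : ((ok k).filter (fun R => R.card = c)).card ≤
      (((Finset.univ : Finset (Fin k)).erase ⟨0, hk⟩).powersetCard (c - 1)).card := by
    refine Finset.card_le_card_of_injOn (fun R => R.erase ⟨0, hk⟩) ?_ ?_
    · intro R hR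
      rw [Finset.mem_coe, Finset.mem_filter, ok, Finset.mem_filter] at hR
      rw [Finset.mem_coe, Finset.mem_powersetCard]
      refine ⟨Finset.erase_subset_erase _ (Finset.subset_univ _), ?_⟩
      rw [Finset.card_erase_of_mem (hR.1.2.2 _ rfl), hR.2]
    · intro R hR S hS h
      rw [Finset.mem_coe, Finset.mem_filter, ok, Finset.mem_filter] at hR hS
      have h3 := congrArg (insert (⟨0, hk⟩ : Fin k)) h
      simp only [] at h3
      rwa [Finset.insert_erase (hR.1.2.2 _ rfl), Finset.insert_erase (hS.1.2.2 _ rfl)] at h3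
  refine h2.trans ?_
  rw [Finset.card_powersetCard, Finset.card_erase_of_mem (Finset.mem_univ _), Finset.card_univ, Fintype.card_fin]

end Cfsg.Agent.H758.EPX.Sub
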