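import Cfsg.Agent.H758.EPX.Str
import Cfsg.Agent.H758.EPX.SubCount

/-!
# S5745, `k ≥ 2`: the two-point stabilisers `M` with `M ∩ T_i = 1`, `M ∩ N ≠ 1` are of diagonal type
-/

set_option autoImplicit false
set_option linter.unusedSectionVars false

namespace Cfsg.Agent.H758.EPX

open Subgroup Cfsg.Agent.H284 Cfsg.Agent.H209.EPX

universe u

variable {G : Type u} [Group G] {H N : Subgroup G} {T : Type} [Group T] {k : ℕ} {e : N ≃* (Fin k → T)}

variable (e) in
/-- `M ∩ N` in coordinates -/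
def Dt (H : Subgroup G) (x : G) : Subgroup (Fin k → T) := (cj x H).comap (N.subtype.comp e.symm.toMonoidHom)

theorem mem_Dt {x : G} {f : Fin k → T} : f ∈ Dt e H x ↔ ((e.symm f : N) : G) ∈ cj x H := Iff.rfl

theorem mulSingle_mem_Dt {x : G} {i : Fin k} {t : T} : Pi.mulSingle i t ∈ Dt e H x ↔ t ∈ Kt e H x i := Iff.rfl

theorem apply_mem_Dt {x : G} {n : N} : e n ∈ Dt e H x ↔ (n : G) ∈ cj x H := by
  rw [mem_Dt, e.symm_apply_apply]

theorem center_T (hs : IsSimpleGroup T) (hna : ∃ a b : T, a * b ≠ b * a) {z : T} (hz : ∀ t : T, z * t = t * z) :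
    z = 1 := by
  have h0 : z ∈ Subgroup.center T := Subgroup.mem_center_iff.mpr fun g => (hz g).symm
  rcases hs.eq_bot_or_eq_top_of_normal (Subgroup.center T) inferInstance with h | h
  · rwa [h, Subgroup.mem_bot] at h0
  · exfalso
    obtain ⟨a, b, hab⟩ := hna
    have : b ∈ Subgroup.center T := by rw [h]; trivial
    exact hab (Subgroup.mem_center_iff.mp this a)

theorem coord_one (hs : IsSimpleGroup T) (hna : ∃ a b : T, a * b ≠ b * a) {n : N} {i : Fin k} :
    e n i = 1 ↔ ∀ a ∈ fc e i, (n : G) * a = a * n := by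
  constructor
  · rintro h _ ⟨t, rfl⟩
    have h1 := conj_inj e n i t
    rw [h, one_mul, inv_one, mul_one] at h1
    exact mul_inv_eq_iff_eq_mul.mp h1
  · intro h
    apply center_T hs hna
    intro t
    have h1 := conj_inj e n i t
    rw [h _ (inj_mem e i t), mul_inv_cancel_right] at h1
    have h2 := inj_injective e i h1
    exact (mul_inv_eq_iff_eq_mul.mp h2.symm)

/-- conjugation by `m ∈ H` in coordinates -/
theorem EPS.coord [Finite G] (h : EPS H N e) {m : G} (hm : m ∈ H) {i j : Fin k} (hj : cj m (fc e i) = fc e j) :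
    ∃ α : MulAut T, ∀ n : N, e ⟨m * n * m⁻¹, h.nrm m hm n n.2⟩ j = α (e n i) := by
  have hfin : Finite T := Finite.of_injective _ (inj_injective e i)
  have h1 : ∀ t : T, ∃ t' : T, inj e j t' = m * inj e i t * m⁻¹ := by
    intro t
    have h2 : m * inj e i t * m⁻¹ ∈ fc e j := by
      rw [← hj]
      exact conj_mem_cj (inj_mem e i t)
    exact h2
  choose f hf using h1
  let F : T →* T :=
    { toFun := f
      map_one' := by
        apply inj_injective e j
        rw [hf]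
        simp
      map_mul' := fun a b => by
        apply inj_injective e j
        rw [hf, map_mul, map_mul, hf, hf]
        group }
  have hF : Function.Injective F := by
    intro a b hab
    have h2 : inj e j (f a) = inj e j (f b) := congrArg (inj e j) hab
    rw [hf, hf] at h2
    exact inj_injective e i (mul_left_cancel (mul_right_cancel h2))
  refine ⟨MulEquiv.ofBijective F (Finite.injective_iff_bijective.1 hF), fun n => ?_⟩
  -- split off the `i`-th coordinate
  set t := e n i with ht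
  let n' : N := n * (e.symm (Pi.mulSingle i t))⁻¹
  have hn' : e n' i = 1 := by
    simp [n', map_mul, map_inv, ht]
  have hc := (coord_one h.simple h.nab).mp hn'
  have hc' : ∀ a ∈ fc e j, m * (n' : G) * m⁻¹ * a = a * (m * (n' : G) * m⁻¹) := by
    intro a ha
    rw [← hj, mem_cj] at ha
    have h3 := hc _ ha
    calc m * (n' : G) * m⁻¹ * a = m * ((n' : G) * (m⁻¹ * a * m)) * m⁻¹ := by group
      _ = m * ((m⁻¹ * a * m) * (n' : G)) * m⁻¹ := by rw [h3]
      _ = a * (m * (n' : G) * m⁻¹) := by group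
  have h4 : e ⟨m * n' * m⁻¹, h.nrm m hm n' n'.2⟩ j = 1 := (coord_one h.simple h.nab).mpr hc'
  have h5 : (⟨m * n * m⁻¹, h.nrm m hm n n.2⟩ : N) =
      ⟨m * n' * m⁻¹, h.nrm m hm n' n'.2⟩ * ⟨inj e j (f t), inj_mem_N e j (f t)⟩ := by
    apply Subtype.ext
    change m * (n : G) * m⁻¹ = m * (n' : G) * m⁻¹ * inj e j (f t)
    rw [hf]
    have h6 : (n : G) = n' * inj e i t := by
      change (n : G) = ((n * (e.symm (Pi.mulSingle i t))⁻¹ : N) : G) * inj e i t
      rw [Subgroup.coe_mul, inj_apply, InvMemClass.coe_inv, inv_mul_cancel_right]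
    rw [h6]
    group
  rw [h5, map_mul, Pi.mul_apply, h4, one_mul, e_inj, Pi.mulSingle_eq_same]
  rfl

/-- **diagonal type** -/
theorem EPS.subdirect [Finite G] (h : EPS H N e) {x : G} (hx : x ∉ H) (h0 : ∀ i, Kt e H x i = ⊥)
    (hD : Dt e H x ≠ ⊥) : Sub.Sd (Dt e H x) := by
  let Di : Fin k → Subgroup T := fun i => (Dt e H x).map (Pi.evalMonoidHom (fun _ : Fin k => T) i)
  let P : Subgroup G := ((Subgroup.pi Set.univ Di).map e.symm.toMonoidHom).map N.subtype
  have hP : ∀ n : N, (n : G) ∈ P ↔ ∀ i, e n i ∈ Di i := by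
    intro n
    constructor
    · rintro ⟨n', ⟨f, hf, rfl⟩, hn'⟩
      have h1 : n = e.symm f := Subtype.ext hn'.symm
      intro i
      rw [h1, e.apply_symm_apply]
      exact hf i trivial
    · intro hn
      exact ⟨n, ⟨e n, fun i _ => hn i, e.symm_apply_apply n⟩, rfl⟩
  have hPN : P ≤ N := by
    rintro _ ⟨n, _, rfl⟩
    exact n.2
  have hDP : ∀ f ∈ Dt e H x, ((e.symm f : N) : G) ∈ P := by
    intro f hf
    rw [hP]
    intro i
    rw [e.apply_symm_apply]
    exact ⟨f, hf, rfl⟩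
  have hMP : ∀ m ∈ H ⊓ cj x H, ∀ p ∈ P, m * p * m⁻¹ ∈ P := by
    intro m hm p hp
    have hmH := (mem_inf.1 hm).1
    have h1 := (hP ⟨m * p * m⁻¹, h.nrm m hmH p (hPN hp)⟩).mpr
    refine h1 fun j => ?_
    obtain ⟨i, hi⟩ := EPS.exists_cj h (H.inv_mem hmH) j
    have hij : cj m (fc e i) = fc e j := by rw [← hi, cj_cj_inv]
    obtain ⟨α, hα⟩ := EPS.coord h hmH hij
    have h2 := hα ⟨p, hPN hp⟩
    have h3 : e ⟨m * p * m⁻¹, h.nrm m hmH p (hPN hp)⟩ j = α (e ⟨p, hPN hp⟩ i) := h2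
    rw [h3]
    obtain ⟨d, hd, hdi⟩ := (hP ⟨p, hPN hp⟩).mp hp i
    rw [← hdi]
    have h4 := hα (e.symm d)
    rw [e.apply_symm_apply] at h4
    refine ⟨e ⟨m * (e.symm d : N) * m⁻¹, h.nrm m hmH _ (e.symm d).2⟩, ?_, ?_⟩
    · rw [SetLike.mem_coe, apply_mem_Dt]
      exact (cj x H).mul_mem ((cj x H).mul_mem (mem_inf.1 hm).2 hd) ((cj x H).inv_mem (mem_inf.1 hm).2)
    · exact h4
  have hML : H ⊓ cj x H ≤ H ⊓ normalizer (P : Set G) := by
    intro m hm
    refine ⟨(mem_inf.1 hm).1, mem_normalizer_iff.mpr fun p => ⟨fun hp => hMP m hm p hp, fun hp => ?_⟩⟩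
    have h1 := hMP m⁻¹ ((H ⊓ cj x H).inv_mem hm) _ hp
    have h2 : m⁻¹ * (m * p * m⁻¹) * m⁻¹⁻¹ = p := by group
    rwa [h2] at h1
  rcases h.ep.two x hx _ hML inf_le_left with hL | hL
  · exfalso
    have h1 : P ≤ cj x H := by
      have : P ≤ H ⊓ normalizer (P : Set G) := fun p hp => ⟨h.le (hPN hp), le_normalizer hp⟩
      rw [hL] at this
      exact this.trans inf_le_right
    apply hD
    rw [Subgroup.eq_bot_iff_forall]
    intro f hf
    funext i
    have h2 : inj e i (f i) ∈ P := by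
      rw [show inj e i (f i) = (((⟨inj e i (f i), inj_mem_N e i (f i)⟩ : N)) : G) from rfl, hP]
      intro j
      rw [e_inj]
      by_cases hj : j = i
      · subst hj
        rw [Pi.mulSingle_eq_same]
        exact ⟨f, hf, rfl⟩
      · rw [Pi.mulSingle_eq_of_ne hj]
        exact one_mem _
    have h3 : f i ∈ Kt e H x i := h1 h2
    rw [h0, Subgroup.mem_bot] at h3
    exact h3
  · have hNP : N ≤ P := by
      refine h.least P ⟨hPN.trans h.le, fun g hg p hp => ?_⟩ ?_
      · rw [← hL] at hg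
        exact (mem_normalizer_iff.mp (mem_inf.1 hg).2 p).mp hp
      · intro hP0
        apply hD
        rw [Subgroup.eq_bot_iff_forall]
        intro f hf
        have h1 := hDP f hf
        rw [hP0, Subgroup.mem_bot] at h1
        have h2 : e.symm f = 1 := Subtype.ext h1
        exact (map_eq_one_iff e.symm e.symm.injective).mp h2
    intro i t
    have h1 := (hP (e.symm (Pi.mulSingle i t))).mp (hNP (e.symm (Pi.mulSingle i t)).2) i
    rw [e.apply_symm_apply, Pi.mulSingle_eq_same] at h1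
    obtain ⟨d, hd, hdi⟩ := h1
    exact ⟨d, hd, hdi⟩

theorem EPS.Dt_mem_Dg [Finite G] (h : EPS H N e) {x : G} (hx : x ∉ H) (h0 : ∀ i, Kt e H x i = ⊥)
    (hD : Dt e H x ≠ ⊥) : Dt e H x ∈ Sub.Dg T k :=
  ⟨EPS.subdirect h hx h0 hD, fun i t ht => by
    have : t ∈ Kt e H x i := ht
    rwa [h0, Subgroup.mem_bot] at this⟩

/-- `M` is determined by `M ∩ N ≠ 1` -/
theorem EPS.eq_of_Dt [Finite G] (h : EPS H N e) {x y : G} (hx : x ∉ H) (hy : y ∉ H) (hD : Dt e H x ≠ ⊥)
    (hxy : Dt e H x = Dt e H y) : H ⊓ cj x H = H ⊓ cj y H := by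
  have key : ∀ x y : G, x ∉ H → y ∉ H → Dt e H x ≠ ⊥ → Dt e H x = Dt e H y → H ⊓ cj x H ≤ H ⊓ cj y H := by
    intro x y hx hy hD hxy m hm
    have hE : ∀ n ∈ N, (n ∈ cj x H ↔ n ∈ cj y H) := by
      intro n hn
      have h1 := apply_mem_Dt (e := e) (H := H) (x := x) (n := ⟨n, hn⟩)
      have h2 := apply_mem_Dt (e := e) (H := H) (x := y) (n := ⟨n, hn⟩)
      rw [hxy] at h1
      exact h1.symm.trans h2
    refine ⟨(mem_inf.1 hm).1, h.ep.norm hy (X := cj y H ⊓ N) ?_ ?_ ?_ (mem_inf.1 hm).1 ?_⟩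
    · exact le_inf (inf_le_right.trans h.le) inf_le_left
    · intro m hm z hz
      exact ⟨(cj y H).mul_mem ((cj y H).mul_mem (mem_inf.1 hm).2 (mem_inf.1 hz).1) ((cj y H).inv_mem (mem_inf.1 hm).2),
        h.nrm m (mem_inf.1 hm).1 z (mem_inf.1 hz).2⟩
    · intro h0
      apply hD
      rw [Subgroup.eq_bot_iff_forall]
      intro f hf
      have h1 : ((e.symm f : N) : G) ∈ cj y H ⊓ N := ⟨(hE _ (e.symm f).2).mp hf, (e.symm f).2⟩
      rw [h0, Subgroup.mem_bot] at h1
      have h2 : e.symm f = 1 := Subtype.ext h1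
      exact (map_eq_one_iff e.symm e.symm.injective).mp h2
    · intro z hz
      have hzN := (mem_inf.1 hz).2
      have hzx := (hE z hzN).mpr (mem_inf.1 hz).1
      have h3 := h.nrm m (mem_inf.1 hm).1 z hzN
      exact ⟨(hE _ h3).mp ((cj x H).mul_mem ((cj x H).mul_mem (mem_inf.1 hm).2 hzx) ((cj x H).inv_mem (mem_inf.1 hm).2)), h3⟩
  exact le_antisymm (key x y hx hy hD hxy) (key y x hy hx (hxy ▸ hD) hxy.symm)

/-- **the number of two-point stabilisers of diagonal type** -/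
theorem EPS.ncard_diag_le [Finite G] (h : EPS H N e) :
    {M : Subgroup G | ∃ x, x ∉ H ∧ M = H ⊓ cj x H ∧ (∀ i, Kt e H x i = ⊥) ∧ Dt e H x ≠ ⊥}.ncard ≤ (Sub.Dg T k).ncard := by
  have hfin : Finite T := Finite.of_injective _ (inj_injective e ⟨0, h.pos⟩)
  refine Set.ncard_le_ncard_of_injOn (fun M => M.comap (N.subtype.comp e.symm.toMonoidHom)) ?_ ?_ (Set.toFinite _)
  · rintro _ ⟨x, hx, rfl, h0, hD⟩
    have h1 : (H ⊓ cj x H).comap (N.subtype.comp e.symm.toMonoidHom) = Dt e H x := by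
      ext f
      exact ⟨fun hf => (mem_inf.1 hf).2, fun hf => ⟨h.le (e.symm f).2, hf⟩⟩
    show (H ⊓ cj x H).comap (N.subtype.comp e.symm.toMonoidHom) ∈ _
    rw [h1]
    exact EPS.Dt_mem_Dg h hx h0 hD
  · rintro _ ⟨x, hx, rfl, _, hD⟩ _ ⟨y, hy, rfl, _, hD'⟩ hxy
    apply EPS.eq_of_Dt h hx hy hD
    have h1 : ∀ x : G, (H ⊓ cj x H).comap (N.subtype.comp e.symm.toMonoidHom) = Dt e H x := by
      intro x
      ext f
      exact ⟨fun hf => (mem_inf.1 hf).2, fun hf => ⟨h.le (e.symm f).2, hf⟩⟩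
    rw [← h1, ← h1]
    exact hxy

end Cfsg.Agent.H758.EPX
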