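import Cfsg.Agent.H758.EPX.Diag
import Cfsg.Agent.H758.EPX.Count
import Cfsg.Agent.Schreier.Basic
import Cfsg.Agent.BpAlt.Row

/-!
# S5745, `2 ≤ k ≤ 5`: the case `M ∩ N = 1` does not occur
-/

set_option autoImplicit false
set_option linter.unusedSectionVars false

namespace Cfsg.Agent.H758.EPX

open Subgroup Cfsg.Agent.H284 Cfsg.Agent.H209.EPX Cfsg.Agent.Schreier.Basic

universe u

variable {G : Type u} [Group G] {H N : Subgroup G} {T : Type} [Group T] {k : ℕ} {e : N ≃* (Fin k → T)}

/-- a perfect group of permutations of `Fin k` (`k ≤ 5`) fixing a point is trivial -/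
theorem perm_perfect (hk : k ≤ 5) (i0 : Fin k) {P : Subgroup (Equiv.Perm (Fin k))} (hP : ⁅P, P⁆ = P)
    (hfix : ∀ p ∈ P, p i0 = i0) : P = ⊥ := by
  apply eq_bot_of_perfect_of_solvable hP
  have h1 : P ≤ MulAction.stabilizer (Equiv.Perm (Fin k)) i0 := fun p hp => hfix p hp
  have h2 : Nat.card (MulAction.stabilizer (Equiv.Perm (Fin k)) i0) < 60 := by
    have h3 := Subgroup.card_mul_index (MulAction.stabilizer (Equiv.Perm (Fin k)) i0)
    rw [MulAction.index_stabilizer_of_transitive, Nat.card_perm, Nat.card_eq_fintype_card (α := Fin k),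
      Fintype.card_fin] at h3
    have hk0 : 0 < k := i0.pos
    generalize Nat.card (MulAction.stabilizer (Equiv.Perm (Fin k)) i0) = c at h3 ⊢
    have h5 : k = 1 ∨ k = 2 ∨ k = 3 ∨ k = 4 ∨ k = 5 := by omega
    rcases h5 with rfl | rfl | rfl | rfl | rfl <;> simp [Nat.factorial] at h3 <;> omega
  have h3 : Group.IsSolvable (MulAction.stabilizer (Equiv.Perm (Fin k)) i0) := Cfsg.Agent.BpAlt.solvable_of_lt _ _ rfl h2
  exact Group.isSolvable_of_isSolvable_injective (f := Subgroup.inclusion h1) (Subgroup.inclusion_injective h1)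

/-- the action of `H` on the factors -/
noncomputable def perm [Finite G] (h : EPS H N e) : H →* Equiv.Perm (Fin k) := by
  choose f hf using fun (g : H) (i : Fin k) => EPS.exists_cj h g.2 i
  have h1 : f 1 = id := by
    funext i
    apply fc_injective e h.simple
    rw [← hf]
    exact cj_one _
  have h2 : ∀ a b : H, f (a * b) = f a ∘ f b := by
    intro a b
    funext i
    apply fc_injective e h.simple
    rw [← hf, Function.comp, ← hf, ← hf, ← cj_mul]
    rfl
  exact
    { toFun := fun g => ⟨f g, f g⁻¹, fun i => by rw [← Function.comp_apply (f := f g⁻¹), ← h2, inv_mul_cancel, h1]; rfl,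
        fun i => by rw [← Function.comp_apply (f := f g), ← h2, mul_inv_cancel, h1]; rfl⟩
      map_one' := by
        ext i
        show ((f 1 i : Fin k) : ℕ) = _
        rw [h1]; rfl
      map_mul' := fun a b => by
        ext i
        show ((f (a * b) i : Fin k) : ℕ) = _
        rw [h2]; rfl }

theorem perm_spec [Finite G] (h : EPS H N e) (g : H) (i : Fin k) : cj (g : G) (fc e i) = fc e (perm h g i) :=
  Classical.choose_spec (EPS.exists_cj h g.2 i)

/-- an element inducing inner automorphisms on all factors lies in `N` -/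
theorem EPS.mem_of_inner (h : EPS H N e) {g : G}
    (hg : ∀ i, ∃ t : T, ∀ s : T, g * inj e i s * g⁻¹ = inj e i (t * s * t⁻¹)) : g ∈ N := by
  choose t ht using hg
  have h1 : ((e.symm t : N) : G)⁻¹ * g ∈ Subgroup.centralizer (N : Set G) := by
    have h2 : N ≤ Subgroup.centralizer ({((e.symm t : N) : G)⁻¹ * g} : Set G) := by
      refine (N_le_iSup e).trans (iSup_le fun i => ?_)
      rintro _ ⟨s, rfl⟩
      rw [Subgroup.mem_centralizer_singleton_iff]
      have h3 := conj_inj e (e.symm t) i s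
      rw [e.apply_symm_apply, ← ht] at h3
      have h4 : inj e i s = ((e.symm t : N) : G)⁻¹ * (((e.symm t : N) : G) * inj e i s * ((e.symm t : N) : G)⁻¹) *
          ((e.symm t : N) : G) := by group
      rw [h3] at h4
      have h5 : ((e.symm t : N) : G)⁻¹ * g * inj e i s = inj e i s * (((e.symm t : N) : G)⁻¹ * g) := by
        nth_rewrite 2 [h4]
        group
      exact h5.symm
    intro n hn
    exact Subgroup.mem_centralizer_singleton_iff.mp (h2 hn)
  rw [h.cent, Subgroup.mem_bot] at h1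
  rw [inv_mul_eq_one.mp h1 |>.symm]
  exact (e.symm t).2

/-- the perfect subgroups of `H` normalising all the factors lie in `N` -/
theorem EPS.perfect_le (h : EPS H N e) (hsch : Sch T) {P : Subgroup G} (hP : ⁅P, P⁆ = P)
    (hn : ∀ p ∈ P, ∀ i, cj p (fc e i) = fc e i) : P ≤ N := by
  have key : ∀ i, ∀ p ∈ P, ∃ t : T, ∀ s : T, p * inj e i s * p⁻¹ = inj e i (t * s * t⁻¹) := by
    intro i
    have hle : P ≤ Subgroup.normalizer (fc e i : Set G) := by
      intro p hp
      rw [Subgroup.mem_normalizer_iff]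
      intro n
      constructor
      · intro hnn
        rw [← hn p hp i]
        exact conj_mem_cj hnn
      · intro hnn
        rw [← hn p hp i] at hnn
        obtain ⟨m, hm, hmn⟩ := hnn
        have : m = n := by
          have h1 : p * m * p⁻¹ = p * n * p⁻¹ := hmn
          exact mul_left_cancel (mul_right_cancel h1)
        exact this ▸ hm
    let φ : P →* MulAut (fc e i) := ((fc e i).normalizerMonoidHom).comp (inclusion hle)
    have hφ : ∀ (m : P) (n : fc e i), ((φ m n : fc e i) : G) = m * n * (m : G)⁻¹ := fun m n => rfl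
    have hs : Sch (fc e i) := Sch.of_equiv (MonoidHom.ofInjective (inj_injective e i)) hsch
    have hP' : ⁅(⊤ : Subgroup P), (⊤ : Subgroup P)⁆ = ⊤ := by
      apply Subgroup.map_injective P.subtype_injective
      rw [Subgroup.map_commutator, ← MonoidHom.range_eq_map, Subgroup.range_subtype, hP]
    have h1 := hs _ (map_perfect φ hP')
    intro p hp
    obtain ⟨c, hc⟩ := h1 ⟨⟨p, hp⟩, trivial, rfl⟩
    obtain ⟨t, ht⟩ := c.2
    refine ⟨t, fun s => ?_⟩
    have h2 := hφ ⟨p, hp⟩ ⟨inj e i s, inj_mem e i s⟩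
    have h3 : ((φ ⟨p, hp⟩ ⟨inj e i s, inj_mem e i s⟩ : fc e i) : G) = c * inj e i s * (c : G)⁻¹ := by
      rw [← hc]; rfl
    rw [← h2, h3, ← ht]
    simp [map_mul]
  intro p hp
  exact EPS.mem_of_inner h fun i => key i p hp

/-- **`M ∩ N ≠ 1`** for `k ≤ 5` -/
theorem EPS.Dt_ne_bot [Finite G] (h : EPS H N e) (hsch : Sch T) (hk : k ≤ 5) {x : G} (hx : x ∉ H) :
    Dt e H x ≠ ⊥ := by
  intro hD
  have hfin : Finite T := Finite.of_injective _ (inj_injective e ⟨0, h.pos⟩)
  set M := H ⊓ cj x H with hM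
  have hMN : ∀ m ∈ M, m ∈ N → m = 1 := by
    intro m hm hmN
    have h1 : e ⟨m, hmN⟩ ∈ Dt e H x := (apply_mem_Dt (n := ⟨m, hmN⟩)).mpr (mem_inf.1 hm).2
    rw [hD, Subgroup.mem_bot, map_eq_one_iff e e.injective] at h1
    exact congrArg Subtype.val h1
  set i0 : Fin k := ⟨0, h.pos⟩ with hi0
  let M₁ : Subgroup G :=
    { carrier := {m | m ∈ M ∧ cj m (fc e i0) = fc e i0}
      one_mem' := ⟨M.one_mem, cj_one _⟩
      mul_mem' := by
        rintro a b ⟨ha, ha'⟩ ⟨hb, hb'⟩
        exact ⟨M.mul_mem ha hb, by rw [cj_mul, hb', ha']⟩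
      inv_mem' := by
        rintro a ⟨ha, ha'⟩
        refine ⟨M.inv_mem ha, ?_⟩
        nth_rewrite 1 [← ha']
        rw [← cj_mul, inv_mul_cancel, cj_one] }
  have hM₁ : ∀ m, m ∈ M₁ ↔ m ∈ M ∧ cj m (fc e i0) = fc e i0 := fun m => Iff.rfl
  -- `M₁` is solvable
  have hsol : Group.IsSolvable M₁ := by
    apply isSolvable_of_perfect_eq_bot
    intro P hPM hP
    have hPH : P ≤ H := fun p hp => (mem_inf.1 ((hM₁ p).mp (hPM hp)).1).1
    have h1 : (⊤ : Subgroup P).map ((perm h).comp (inclusion hPH)) = ⊥ := by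
      apply perm_perfect hk i0
      · apply map_perfect
        apply Subgroup.map_injective P.subtype_injective
        rw [Subgroup.map_commutator, ← MonoidHom.range_eq_map, Subgroup.range_subtype, hP]
      · rintro _ ⟨p, _, rfl⟩
        apply fc_injective e h.simple
        exact (perm_spec h (inclusion hPH p) i0).symm.trans ((hM₁ p).mp (hPM p.2)).2
    have h2 : P ≤ N := by
      apply EPS.perfect_le h hsch hP
      intro p hp i
      have h3 : perm h (inclusion hPH ⟨p, hp⟩) = 1 := by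
        have : (perm h).comp (inclusion hPH) ⟨p, hp⟩ ∈ (⊤ : Subgroup P).map ((perm h).comp (inclusion hPH)) :=
          ⟨_, trivial, rfl⟩
        rw [h1, Subgroup.mem_bot] at this
        exact this
      have h4 := perm_spec h (inclusion hPH ⟨p, hp⟩) i
      rw [h3] at h4
      exact h4
    rw [eq_bot_iff]
    intro p hp
    rw [Subgroup.mem_bot]
    exact hMN p ((hM₁ p).mp (hPM hp)).1 (h2 hp)
  -- the factor has no `M₁`-invariant subgroup
  have hirr : ∀ L : Subgroup G, L ≤ fc e i0 → (∀ m ∈ M₁, ∀ l ∈ L, m * l * m⁻¹ ∈ L) → L = ⊥ ∨ L = fc e i0 := by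
    intro L hL hLM
    by_contra hcon
    push Not at hcon
    obtain ⟨hL0, hL1⟩ := hcon
    have hXN : ncl M L ≤ N := by
      refine iSup₂_le fun m hm => ?_
      rintro _ ⟨l, hl, rfl⟩
      exact h.nrm m (mem_inf.1 hm).1 l (fc_le e i0 (hL hl))
    -- the first coordinate
    have hco : ∀ n : N, (n : G) ∈ ncl M L → inj e i0 (e n i0) ∈ L := by
      intro n hn
      let S : Subgroup N := (L.comap (inj e i0)).comap ((Pi.evalMonoidHom (fun _ : Fin k => T) i0).comp e.toMonoidHom)
      have hS : ncl M L ≤ S.map N.subtype := by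
        refine iSup₂_le fun m hm => ?_
        rintro _ ⟨l, hl, rfl⟩
        have hlN := fc_le e i0 (hL hl)
        have h2 : m * l * m⁻¹ ∈ N := h.nrm m (mem_inf.1 hm).1 l hlN
        refine ⟨⟨_, h2⟩, ?_, rfl⟩
        show inj e i0 (e ⟨m * l * m⁻¹, h2⟩ i0) ∈ L
        obtain ⟨j, hj⟩ := EPS.exists_cj h (mem_inf.1 hm).1 i0
        have h3 : m * l * m⁻¹ ∈ fc e j := by
          rw [← hj]
          exact conj_mem_cj (hL hl)
        obtain ⟨t, ht⟩ := h3
        have h4 : (⟨m * l * m⁻¹, h2⟩ : N) = ⟨inj e j t, inj_mem_N e j t⟩ := Subtype.ext ht.symm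
        rw [h4, e_inj]
        by_cases hij : j = i0
        · subst hij
          rw [Pi.mulSingle_eq_same, ht]
          exact hLM m ((hM₁ m).mpr ⟨hm, hj⟩) l hl
        · rw [Pi.mulSingle_eq_of_ne (Ne.symm hij), map_one]
          exact L.one_mem
      obtain ⟨n', hn', hnn⟩ := hS hn
      have : n' = n := Subtype.ext hnn
      exact this ▸ hn'
    -- `M · ncl M L = H`
    have h5 : M ⊔ ncl M L ≤ H := sup_le inf_le_left (hXN.trans h.le)
    rcases h.ep.two x hx _ (le_sup_left : M ≤ M ⊔ ncl M L) h5 with h6 | h6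
    · apply hL0
      rw [eq_bot_iff]
      intro l hl
      rw [Subgroup.mem_bot]
      have h7 : l ∈ M ⊔ ncl M L := (le_ncl M L |>.trans le_sup_right) hl
      rw [h6] at h7
      exact hMN l h7 (fc_le e i0 (hL hl))
    · apply hL1
      apply le_antisymm hL
      rintro _ ⟨t, rfl⟩
      have h7 : inj e i0 t ∈ M ⊔ ncl M L := by
        rw [h6]
        exact h.le (inj_mem_N e i0 t)
      obtain ⟨n, hn, m, hm, hnm⟩ := mem_sup_norm (fun m hm n hn => ncl_conj hm hn) h7
      have h8 : m ∈ N := by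
        have : m = n⁻¹ * inj e i0 t := by rw [hnm]; group
        rw [this]
        exact N.mul_mem (N.inv_mem (hXN hn)) (inj_mem_N e i0 t)
      rw [hMN m hm h8, mul_one] at hnm
      have h9 := hco ⟨inj e i0 t, inj_mem_N e i0 t⟩ (show inj e i0 t ∈ ncl M L from hnm ▸ hn)
      rw [e_inj, Pi.mulSingle_eq_same] at h9
      exact h9
  have hr := reg_sub (M := M₁) (N := fc e i0) (fun m hm n hn => by
    rw [← ((hM₁ m).mp hm).2]
    exact conj_mem_cj hn) hsol hirr (fc_ne_bot e h.simple i0)
  obtain ⟨a, b, hab⟩ := h.nab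
  apply hab
  apply inj_injective e i0
  rw [map_mul, map_mul]
  exact hr.1 _ (inj_mem e i0 a) _ (inj_mem e i0 b)

/-- **the number of two-point stabilisers** (`k ≤ 5`) -/
theorem EPS.ncard_total [Finite G] (h : EPS H N e) (hsch : Sch T) (hk : k ≤ 5) :
    {M : Subgroup G | ∃ x, x ∉ H ∧ M = H ⊓ cj x H}.ncard ≤
      (Cfsg.Agent.H273.EPU.LocK T \ {⊤}).ncard ^ k + (Sub.Dg T k).ncard := by
  refine (Set.ncard_le_ncard ?_ (Set.toFinite _)).trans ((Set.ncard_union_le _ _).trans
    (add_le_add (EPS.ncard_le h) (EPS.ncard_diag_le h)))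
  rintro M ⟨x, hx, hM⟩
  by_cases h0 : ∃ i, Kt e H x i ≠ ⊥
  · exact Or.inl ⟨x, hx, hM, h0⟩
  · push Not at h0
    exact Or.inr ⟨x, hx, hM, h0, EPS.Dt_ne_bot h hsch hk hx⟩

end Cfsg.Agent.H758.EPX
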