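import Cfsg.Agent.H758.EPX.Reg

/-!
# S5745, `k ≥ 2`: the orders of `H` and of the two-point stabilisers
-/

set_option autoImplicit false
set_option linter.unusedSectionVars false

namespace Cfsg.Agent.H758.EPX

open Subgroup Cfsg.Agent.H284 Cfsg.Agent.H209.EPX

universe u

/-- the members of `LocK T` are not abelian (Burnside's transfer theorem) -/
theorem locK_nonab {T : Type u} [Group T] [Finite T] (hs : IsSimpleGroup T) (hna : ∃ a b : T, a * b ≠ b * a)
    {K : Subgroup T} (hK : K ∈ Cfsg.Agent.H273.EPU.LocK T) : ∃ a ∈ K, ∃ b ∈ K, a * b ≠ b * a := by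
  by_contra hcon
  push Not at hcon
  obtain ⟨hK0, hKn⟩ := hK
  have hc1 : Nat.card K ≠ 1 := fun h => hK0 (Subgroup.card_eq_one.1 h)
  obtain ⟨r, hr, hrK⟩ := Nat.exists_prime_and_dvd hc1
  have := Fact.mk hr
  let R : Sylow r K := default
  have hRn : (R : Subgroup K).Normal := by
    constructor
    intro n hn g
    have : g * n * g⁻¹ = n := by
      apply Subtype.ext
      show (g : T) * n * (g : T)⁻¹ = n
      rw [hcon _ g.2 _ n.2, mul_inv_cancel_right]
    rw [this]
    exact hn
  have hRc : (R : Subgroup K).Characteristic := R.characteristic_of_normal hRn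
  have hR0 : (R : Subgroup K) ≠ ⊥ := R.ne_bot_of_dvd_card hrK
  have hN := hKn _ hRc hR0
  have hRp : IsPGroup r ((R : Subgroup K).map K.subtype) := R.isPGroup'.map _
  obtain ⟨P, hP⟩ := hRp.exists_le_sylow
  have hAP : (R : Subgroup K).map K.subtype = (P : Subgroup T) := by
    by_contra hne
    have hlt : (R : Subgroup K).map K.subtype < (P : Subgroup T) := lt_of_le_of_ne hP hne
    have h1 : ((R : Subgroup K).map K.subtype).subgroupOf (P : Subgroup T) < ⊤ := by
      rw [lt_top_iff_ne_top]
      intro e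
      rw [Subgroup.subgroupOf_eq_top] at e
      exact hlt.not_ge e
    have hnil : Group.IsNilpotent (P : Subgroup T) := P.isPGroup'.isNilpotent
    have h2 := Group.normalizerCondition_of_isNilpotent (G := (P : Subgroup T)) _ h1
    obtain ⟨y, hy, hyn⟩ := SetLike.exists_of_lt h2
    apply hyn
    have h3 : (y : T) ∈ K := by
      apply hN
      rw [Subgroup.mem_normalizer_iff]
      intro n
      constructor
      · intro hn
        have h4 : (⟨n, hP hn⟩ : (P : Subgroup T)) ∈ ((R : Subgroup K).map K.subtype).subgroupOf (P : Subgroup T) := hn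
        exact (Subgroup.mem_normalizer_iff.1 hy _).1 h4
      · intro hn
        have hnP : n ∈ (P : Subgroup T) := by
          have h5 := (P : Subgroup T).mul_mem ((P : Subgroup T).mul_mem ((P : Subgroup T).inv_mem y.2) (hP hn)) y.2
          have h6 : (y : T)⁻¹ * ((y : T) * n * (y : T)⁻¹) * y = n := by group
          rwa [h6] at h5
        exact (Subgroup.mem_normalizer_iff.1 hy (⟨n, hnP⟩ : (P : Subgroup T))).2 hn
    -- `y` is an `r`-element of `K`
    have h4 : IsPGroup r ((P : Subgroup T).subgroupOf K) := by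
      have := P.isPGroup'.comap_of_injective K.subtype K.subtype_injective
      exact this
    have h5 : (P : Subgroup T).subgroupOf K ≤ (R : Subgroup K) := by
      have h6 : (P : Subgroup T).subgroupOf K ⊔ (R : Subgroup K) = (R : Subgroup K) := by
        apply R.is_maximal'
        · exact IsPGroup.to_sup_of_normal_right h4 R.isPGroup'
        · exact le_sup_right
      exact le_sup_left.trans h6.le
    exact ⟨⟨y, h3⟩, h5 (show (y : T) ∈ (P : Subgroup T) from y.2), rfl⟩
  have hcomp : Subgroup.IsComplement' (MonoidHom.transferSylow P (by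
      intro y hy
      rw [Subgroup.mem_centralizer_iff]
      have h3 : y ∈ K := by
        apply hN
        rw [hAP]
        exact hy
      intro z hz
      have hz' : z ∈ K := by
        have : z ∈ (R : Subgroup K).map K.subtype := by rw [hAP]; exact hz
        obtain ⟨w, _, rfl⟩ := this
        exact w.2
      exact hcon _ hz' _ h3)).ker (P : Subgroup T) := MonoidHom.ker_transferSylow_isComplement' P _
  have hPK : (P : Subgroup T) ≤ K := by
    rw [← hAP]
    rintro _ ⟨w, _, rfl⟩
    exact w.2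
  rcases (MonoidHom.normal_ker (MonoidHom.transferSylow P _)).eq_bot_or_eq_top with h3 | h3
  · rw [h3, Subgroup.isComplement'_bot_left] at hcomp
    obtain ⟨a, b, hab⟩ := hna
    have h4 : K = ⊤ := top_le_iff.1 (hcomp ▸ hPK)
    exact hab (hcon a (h4 ▸ trivial) b (h4 ▸ trivial))
  · rw [h3, Subgroup.isComplement'_top_left, ← hAP, Subgroup.map_eq_bot_iff_of_injective _ K.subtype_injective] at hcomp
    exact hR0 hcomp

theorem card_ge_six {X : Type u} [Group X] [Finite X] (h : ∃ a b : X, a * b ≠ b * a) : 6 ≤ Nat.card X := by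
  by_contra hcon
  push Not at hcon
  obtain ⟨a, b, hab⟩ := h
  apply hab
  have hpos : 0 < Nat.card X := Nat.card_pos
  have h5 : Nat.card X = 1 ∨ Nat.card X = 2 ∨ Nat.card X = 3 ∨ Nat.card X = 4 ∨ Nat.card X = 5 := by omega
  rcases h5 with h | h | h | h | h
  · have := (Nat.card_eq_one_iff_unique.1 h).1
    exact Subsingleton.elim _ _
  · have := Fact.mk Nat.prime_two
    have := isCyclic_of_prime_card h
    exact IsCyclic.commGroup.mul_comm a b
  · have := Fact.mk Nat.prime_three
    have := isCyclic_of_prime_card h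
    exact IsCyclic.commGroup.mul_comm a b
  · have := Fact.mk Nat.prime_two
    have h4 := IsPGroup.isMulCommutative_of_card_eq_prime_sq (p := 2) (G := X) (by rw [h]; rfl)
    exact mul_comm' a b
  · have := Fact.mk Nat.prime_five
    have := isCyclic_of_prime_card h
    exact IsCyclic.commGroup.mul_comm a b

theorem locK_card {T : Type u} [Group T] [Finite T] (hs : IsSimpleGroup T) (hna : ∃ a b : T, a * b ≠ b * a)
    {K : Subgroup T} (hK : K ∈ Cfsg.Agent.H273.EPU.LocK T) : 6 ≤ Nat.card K := by
  obtain ⟨a, ha, b, hb, hab⟩ := locK_nonab hs hna hK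
  exact card_ge_six ⟨⟨a, ha⟩, ⟨b, hb⟩, fun h => hab (congrArg Subtype.val h)⟩

variable {G : Type u} [Group G] {H N : Subgroup G} {T : Type} [Group T] {k : ℕ} {e : N ≃* (Fin k → T)}

theorem card_N [Finite T] (e : N ≃* (Fin k → T)) : Nat.card N = Nat.card T ^ k := by
  rw [Nat.card_congr e.toEquiv, Nat.card_fun, Nat.card_eq_fintype_card (α := Fin k), Fintype.card_fin]

/-- `|H| |M ∩ N| = |M| |N|` -/
theorem EPS.card_mul [Finite G] (h : EPS H N e) {x : G} (hx : x ∉ H) :
    Nat.card H * Nat.card (H ⊓ cj x H ⊓ N : Subgroup G) = Nat.card (H ⊓ cj x H : Subgroup G) * Nat.card N := by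
  set M := H ⊓ cj x H with hM
  have hn : (N.subgroupOf H).Normal := by
    constructor
    rintro ⟨n, hnH⟩ hn ⟨g, hg⟩
    exact h.nrm g hg n hn
  have h1 : M.subgroupOf H ⊔ N.subgroupOf H = ⊤ := by
    rw [eq_top_iff]
    rintro ⟨g, hg⟩ _
    obtain ⟨n, hn, m, hm, hgm⟩ := h.ep.fac h.le h.nrm h.ne hx hg
    have h2 : (⟨g, hg⟩ : H) = ⟨n, h.le hn⟩ * ⟨m, (mem_inf.1 hm).1⟩ := Subtype.ext hgm
    rw [h2]
    exact Subgroup.mul_mem _ (Subgroup.mem_sup_right hn) (Subgroup.mem_sup_left hm)
  have h2 := Subgroup.relIndex_sup_right (M.subgroupOf H) (N.subgroupOf H)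
  rw [h1, Subgroup.relIndex_top_right] at h2
  have h3 := Subgroup.card_mul_index (N.subgroupOf H)
  rw [h2] at h3
  have h4 := Subgroup.card_mul_index ((N.subgroupOf H).subgroupOf (M.subgroupOf H))
  have h5 : Nat.card (N.subgroupOf H) = Nat.card N := Nat.card_congr (Subgroup.subgroupOfEquivOfLe h.le).toEquiv
  have h6 : Nat.card (M.subgroupOf H) = Nat.card M := Nat.card_congr (Subgroup.subgroupOfEquivOfLe inf_le_left).toEquiv
  have h7 : Nat.card ((N.subgroupOf H).subgroupOf (M.subgroupOf H)) = Nat.card (M ⊓ N : Subgroup G) := by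
    rw [← Subgroup.inf_subgroupOf_right (N.subgroupOf H) (M.subgroupOf H), Nat.card_congr (Subgroup.subgroupOfEquivOfLe inf_le_right).toEquiv]
    have h8 : N.subgroupOf H ⊓ M.subgroupOf H = (M ⊓ N).subgroupOf H := by
      rw [inf_comm]; rfl
    rw [h8, Nat.card_congr (Subgroup.subgroupOfEquivOfLe (inf_le_left.trans inf_le_left)).toEquiv]
  rw [h5] at h3
  rw [h6, h7] at h4
  change Nat.card (M ⊓ N : Subgroup G) * (N.subgroupOf H).relIndex (M.subgroupOf H) = _ at h4
  rw [← h3, ← h4]
  ring

theorem card_Dt {x : G} (h : EPS H N e) : Nat.card (H ⊓ cj x H ⊓ N : Subgroup G) = Nat.card (Dt e H x) := by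
  have h1 : (Dt e H x).map (N.subtype.comp e.symm.toMonoidHom) = H ⊓ cj x H ⊓ N := by
    ext g
    constructor
    · rintro ⟨f, hf, rfl⟩
      exact ⟨⟨h.le (e.symm f).2, hf⟩, (e.symm f).2⟩
    · rintro ⟨⟨_, hg⟩, hgN⟩
      refine ⟨e ⟨g, hgN⟩, (apply_mem_Dt (n := ⟨g, hgN⟩)).mpr hg, ?_⟩
      show ((e.symm (e ⟨g, hgN⟩) : N) : G) = g
      rw [e.symm_apply_apply]
  have h2 : Function.Injective (N.subtype.comp e.symm.toMonoidHom) :=
    N.subtype_injective.comp e.symm.injective
  rw [← h1]
  exact (Nat.card_congr ((Dt e H x).equivMapOfInjective _ h2).toEquiv).symm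

/-- type (iii): `|H| ≤ |T|^(k-1) |M|` -/
theorem EPS.iii_card [Finite G] (h : EPS H N e) {x : G} (hx : x ∉ H) (h0 : ∀ i, Kt e H x i = ⊥)
    (hD : Dt e H x ≠ ⊥) : Nat.card H ≤ Nat.card T ^ (k - 1) * Nat.card (H ⊓ cj x H : Subgroup G) := by
  have hfin : Finite T := Finite.of_injective _ (inj_injective e ⟨0, h.pos⟩)
  have h1 := EPS.card_mul h hx
  rw [card_N e, card_Dt h] at h1
  have h2 : Nat.card T ≤ Nat.card (Dt e H x) := by
    have hS : Sub.Sd (Dt e H x) := (EPS.Dt_mem_Dg h hx h0 hD).1
    apply Nat.card_le_card_of_surjective (fun d : Dt e H x => (d : Fin k → T) ⟨0, h.pos⟩)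
    intro t
    obtain ⟨d, hd, hdt⟩ := hS ⟨0, h.pos⟩ t
    exact ⟨⟨d, hd⟩, hdt⟩
  have h3 : Nat.card T ^ k = Nat.card T ^ (k - 1) * Nat.card T := by
    rw [← pow_succ, Nat.sub_add_cancel h.pos]
  have hpos : 0 < Nat.card T := Nat.card_pos
  apply Nat.le_of_mul_le_mul_right _ hpos
  calc Nat.card H * Nat.card T ≤ Nat.card H * Nat.card (Dt e H x) := Nat.mul_le_mul_left _ h2
    _ = _ := h1
    _ = _ := by rw [h3]; ring

/-- type (ii): `6^k |H| ≤ |T|^k |M|` -/
theorem EPS.ii_card [Finite G] (h : EPS H N e) {x : G} (hx : x ∉ H) {i : Fin k} (hi : Kt e H x i ≠ ⊥) :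
    6 ^ k * Nat.card H ≤ Nat.card T ^ k * Nat.card (H ⊓ cj x H : Subgroup G) := by
  have hfin : Finite T := Finite.of_injective _ (inj_injective e i)
  have h1 := EPS.card_mul h hx
  rw [card_N e, card_Dt h] at h1
  have h2 : 6 ^ k ≤ Nat.card (Dt e H x) := by
    have h3 : ∀ j, 6 ≤ Nat.card (Kt e H x j) := fun j =>
      locK_card h.simple h.nab (EPS.mem_LocK h hx (EPS.Kt_ne h hx hi j))
    have h4 : 6 ^ k ≤ Nat.card (∀ j, Kt e H x j) := by
      rw [Nat.card_pi]
      calc 6 ^ k = ∏ _j : Fin k, 6 := by simp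
        _ ≤ _ := Finset.prod_le_prod' fun j _ => h3 j
    refine h4.trans (Nat.card_le_card_of_injective (fun f => ⟨fun j => (f j : T), ?_⟩) ?_)
    · have h5 : (fun j => (f j : T)) ∈ (Dt e H x) := by
        refine Subgroup.pi_mem_of_mulSingle_mem _ fun j => ?_
        exact (mulSingle_mem_Dt (e := e) (x := x) (i := j)).mpr (f j).2
      exact h5
    · intro f g hfg
      have h5 := congrArg Subtype.val hfg
      funext j
      exact Subtype.ext (congrFun h5 j)
  calc 6 ^ k * Nat.card H ≤ Nat.card (Dt e H x) * Nat.card H := Nat.mul_le_mul_right _ h2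
    _ = _ := by rw [mul_comm]; exact h1
    _ = _ := mul_comm _ _

/-- the restriction of `h ∈ H` normalising `T_i` to `T_i` -/
theorem card_ker_dvd [Finite G] (h : EPS H N e) :
    Nat.card (perm h).ker ∣ Nat.card (MulAut T) ^ k := by
  have hfin : Finite T := Finite.of_injective _ (inj_injective e ⟨0, h.pos⟩)
  have hle : ∀ i, (perm h).ker.map H.subtype ≤ Subgroup.normalizer (fc e i : Set G) := by
    rintro i _ ⟨p, hp, rfl⟩
    have hpi : cj (p : G) (fc e i) = fc e i := by
      have := perm_spec h p i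
      rw [MonoidHom.mem_ker.mp hp] at this
      exact this
    rw [Subgroup.mem_normalizer_iff]
    intro n
    constructor
    · intro hnn
      have := conj_mem_cj (x := (p : G)) hnn
      rw [hpi] at this
      exact this
    · intro hnn
      rw [← hpi] at hnn
      obtain ⟨m, hm, hmn⟩ := hnn
      have h1 : (p : G) * m * (p : G)⁻¹ = (p : G) * n * (p : G)⁻¹ := hmn
      exact (mul_left_cancel (mul_right_cancel h1)) ▸ hm
  let φ : ∀ i, (perm h).ker →* MulAut (fc e i) := fun i =>
    ((fc e i).normalizerMonoidHom).comp ((inclusion (hle i)).comp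
      (((perm h).ker.equivMapOfInjective H.subtype H.subtype_injective).toMonoidHom))
  have hφ : ∀ i (m : (perm h).ker) (n : fc e i), ((φ i m n : fc e i) : G) = ((m : H) : G) * n * ((m : H) : G)⁻¹ :=
    fun i m n => rfl
  let Φ : (perm h).ker →* (∀ i, MulAut (fc e i)) := MonoidHom.pi φ
  have hΦ : Function.Injective Φ := by
    rw [injective_iff_map_eq_one]
    intro m hm
    have h1 : ((m : H) : G) ∈ Subgroup.centralizer (N : Set G) := by
      have h2 : N ≤ Subgroup.centralizer ({((m : H) : G)} : Set G) := by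
        refine (N_le_iSup e).trans (iSup_le fun i => ?_)
        intro a ha
        rw [Subgroup.mem_centralizer_singleton_iff]
        have h3 := hφ i m ⟨a, ha⟩
        have h4 : φ i m = 1 := congrFun hm i
        rw [h4] at h3
        have h5 : a = ((m : H) : G) * a * ((m : H) : G)⁻¹ := h3
        have h6 : a * ((m : H) : G) = ((m : H) : G) * a := by
          nth_rewrite 1 [h5]
          group
        exact h6
      intro n hn
      exact Subgroup.mem_centralizer_singleton_iff.mp (h2 hn)
    rw [h.cent, Subgroup.mem_bot] at h1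
    exact Subtype.ext (Subtype.ext h1)
  have h1 := Subgroup.card_dvd_of_injective Φ hΦ
  have h2 : Nat.card (∀ i, MulAut (fc e i)) = Nat.card (MulAut T) ^ k := by
    rw [Nat.card_pi]
    have h3 : ∀ i, Nat.card (MulAut (fc e i)) = Nat.card (MulAut T) := fun i =>
      Nat.card_congr (MulAut.congr (MonoidHom.ofInjective (inj_injective e i)).symm).toEquiv
    simp only [h3]
    simp
  rwa [h2] at h1

/-- `|H|` divides `|Aut T|^k k!` -/
theorem EPS.card_H_dvd [Finite G] (h : EPS H N e) : Nat.card H ∣ Nat.card (MulAut T) ^ k * k.factorial := by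
  have h1 := Subgroup.card_mul_index (perm h).ker
  rw [Subgroup.index_ker] at h1
  have h2 : Nat.card (perm h).range ∣ k.factorial := by
    have h3 := Subgroup.card_subgroup_dvd_card (perm h).range
    rwa [Nat.card_perm, Nat.card_eq_fintype_card (α := Fin k), Fintype.card_fin] at h3
  rw [← h1]
  exact Nat.mul_dvd_mul (card_ker_dvd h) h2

theorem EPS.card_H_le [Finite G] (h : EPS H N e) : Nat.card H ≤ Nat.card (MulAut T) ^ k * k.factorial := by
  have hfin : Finite T := Finite.of_injective _ (inj_injective e ⟨0, h.pos⟩)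
  exact Nat.le_of_dvd (Nat.mul_pos (pow_pos Nat.card_pos k) k.factorial_pos) (EPS.card_H_dvd h)

end Cfsg.Agent.H758.EPX
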