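import Cfsg.Agent.H209.EPX.Defs

/-!
# S5745, `k ≥ 2`: the structure of the two-point stabilisers, part 1

`EPS H N e`, `e : N ≃* (Fin k → T)`, `M = H ∩ H^x`.
* `inj e i : T →* G`, `fc e i` : the factors `T_i` of `N`;
* `exists_perm`, `EPS.trans` : `H` permutes the factors transitively, and so does every `M` (`EPS.transM`);
* `EPS.fc_not_le` : `T_i ≰ M`;
* `Kt e x i` : the subgroup `M ∩ T_i` as a subgroup of `T`;
* `EPS.locK` : if some `M ∩ T_i ≠ 1` then all, and `N_T(Y) ≤ M ∩ T_i` for all characteristic `1 ≠ Y ≤ M ∩ T_i`;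
* `EPS.mem_iff_norm` : `M` is the normaliser in `H` of the product of the `M ∩ T_i`; it is determined by them.
-/

set_option autoImplicit false
set_option linter.unusedSectionVars false

namespace Cfsg.Agent.H758.EPX

open Subgroup Cfsg.Agent.H284 Cfsg.Agent.H209.EPX

universe u

variable {G : Type u} [Group G] {H N : Subgroup G} {T : Type} [Group T] {k : ℕ}

/-- the embedding of `T` as the `i`-th factor -/
def inj (e : N ≃* (Fin k → T)) (i : Fin k) : T →* G :=
  N.subtype.comp (e.symm.toMonoidHom.comp (MonoidHom.mulSingle (fun _ : Fin k => T) i))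

/-- the `i`-th factor -/
def fc (e : N ≃* (Fin k → T)) (i : Fin k) : Subgroup G := (inj e i).range

variable (e : N ≃* (Fin k → T))

theorem inj_apply (i : Fin k) (t : T) : inj e i t = ((e.symm (Pi.mulSingle i t) : N) : G) := rfl

theorem inj_mem_N (i : Fin k) (t : T) : inj e i t ∈ N := (e.symm (Pi.mulSingle i t)).2

theorem e_inj (i : Fin k) (t : T) : e ⟨inj e i t, inj_mem_N e i t⟩ = Pi.mulSingle i t := by
  have : (⟨inj e i t, inj_mem_N e i t⟩ : N) = e.symm (Pi.mulSingle i t) := rfl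
  rw [this, e.apply_symm_apply]

theorem inj_injective (i : Fin k) : Function.Injective (inj e i) := by
  intro a b h
  have h1 := e_inj e i a
  have h2 := e_inj e i b
  have h3 : (⟨inj e i a, inj_mem_N e i a⟩ : N) = ⟨inj e i b, inj_mem_N e i b⟩ := Subtype.ext h
  rw [h3, h2] at h1
  have h4 := congrFun h1 i
  rw [Pi.mulSingle_eq_same, Pi.mulSingle_eq_same] at h4
  exact h4.symm

theorem inj_mem (i : Fin k) (t : T) : inj e i t ∈ fc e i := ⟨t, rfl⟩

theorem fc_le (i : Fin k) : fc e i ≤ N := by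
  rintro _ ⟨t, rfl⟩
  exact inj_mem_N e i t

theorem inj_comm {i j : Fin k} (hij : i ≠ j) (s t : T) : inj e i s * inj e j t = inj e j t * inj e i s := by
  have h : (e.symm (Pi.mulSingle i s) : N) * e.symm (Pi.mulSingle j t) =
      e.symm (Pi.mulSingle j t) * e.symm (Pi.mulSingle i s) := by
    rw [← map_mul, ← map_mul]
    congr 1
    exact Pi.mulSingle_commute (f := fun _ : Fin k => T) hij s t
  exact congrArg Subtype.val h

theorem fc_comm {i j : Fin k} (hij : i ≠ j) {a b : G} (ha : a ∈ fc e i) (hb : b ∈ fc e j) : a * b = b * a := by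
  obtain ⟨s, rfl⟩ := ha
  obtain ⟨t, rfl⟩ := hb
  exact inj_comm e hij s t

/-- conjugating a factor by `n ∈ N` -/
theorem conj_inj (n : N) (i : Fin k) (t : T) : (n : G) * inj e i t * (n : G)⁻¹ = inj e i (e n i * t * (e n i)⁻¹) := by
  have h : n * e.symm (Pi.mulSingle i t) * n⁻¹ = e.symm (Pi.mulSingle i (e n i * t * (e n i)⁻¹)) := by
    apply e.injective
    rw [map_mul, map_mul, e.apply_symm_apply, e.apply_symm_apply, map_inv]
    funext j
    by_cases hj : j = i
    · subst hj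
      simp
    · simp [Pi.mulSingle_eq_of_ne hj]
  exact congrArg Subtype.val h

theorem cj_fc {n : G} (hn : n ∈ N) (i : Fin k) : cj n (fc e i) = fc e i := by
  have h : ∀ n : G, n ∈ N → cj n (fc e i) ≤ fc e i := by
    rintro n hn _ ⟨_, ⟨t, rfl⟩, rfl⟩
    exact ⟨_, (conj_inj e ⟨n, hn⟩ i t).symm⟩
  refine le_antisymm (h n hn) ?_
  have := cj_mono (x := n) (h n⁻¹ (N.inv_mem hn))
  rwa [cj_cj_inv] at this

/-- `N` is the product of the factors -/
theorem N_le_iSup : N ≤ ⨆ i, fc e i := by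
  intro n hn
  have h : ∀ (S : Finset (Fin k)) (f : Fin k → T), (∀ i, i ∉ S → f i = 1) → ((e.symm f : N) : G) ∈ ⨆ i, fc e i := by
    intro S
    induction S using Finset.induction with
    | empty =>
      intro f hf
      have : f = 1 := funext fun i => hf i (by simp)
      rw [this, map_one]
      exact one_mem _
    | insert a S ha ih =>
      intro f hf
      have h1 : f = Pi.mulSingle a (f a) * (fun i => if i = a then 1 else f i) := by
        funext i
        by_cases hi : i = a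
        · subst hi; simp
        · simp [hi]
      rw [h1, map_mul, Subgroup.coe_mul]
      refine mul_mem (Subgroup.mem_iSup_of_mem a (inj_mem e a _)) (ih _ ?_)
      intro i hi
      by_cases hia : i = a
      · simp [hia]
      · simp only [hia, if_false]
        exact hf i (by simp [hia, hi])
  have := h Finset.univ (e ⟨n, hn⟩) (fun i hi => absurd (Finset.mem_univ i) hi)
  rwa [e.symm_apply_apply] at this

theorem iSup_fc : (⨆ i, fc e i) = N := le_antisymm (iSup_le fun i => fc_le e i) (N_le_iSup e)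

/-- a nontrivial subgroup of `N` normalised by `N` contains a factor -/
theorem exists_fc_le (hs : IsSimpleGroup T) (hna : ∃ a b : T, a * b ≠ b * a) {K : Subgroup G} (hK : K ≤ N)
    (hn : ∀ n ∈ N, ∀ x ∈ K, n * x * n⁻¹ ∈ K) (hne : K ≠ ⊥) : ∃ i, fc e i ≤ K := by
  obtain ⟨x, hx, hx1⟩ := K.bot_or_exists_ne_one.resolve_left hne
  -- a nontrivial coordinate
  obtain ⟨i, hi⟩ : ∃ i, e ⟨x, hK hx⟩ i ≠ 1 := by
    by_contra hcon
    push Not at hcon
    apply hx1
    have h1 : e ⟨x, hK hx⟩ = 1 := funext hcon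
    exact congrArg Subtype.val ((map_eq_one_iff e e.injective).mp h1)
  refine ⟨i, ?_⟩
  -- `T` has trivial centre
  have hcent : Subgroup.center T = ⊥ := by
    rcases hs.eq_bot_or_eq_top_of_normal (Subgroup.center T) inferInstance with h | h
    · exact h
    · exfalso
      obtain ⟨a, b, hab⟩ := hna
      apply hab
      have : b ∈ Subgroup.center T := by rw [h]; trivial
      exact Subgroup.mem_center_iff.mp this a
  obtain ⟨t, ht⟩ : ∃ t : T, e ⟨x, hK hx⟩ i * t ≠ t * e ⟨x, hK hx⟩ i := by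
    by_contra hcon
    push Not at hcon
    apply hi
    have : e ⟨x, hK hx⟩ i ∈ Subgroup.center T := Subgroup.mem_center_iff.mpr (fun g => (hcon g).symm)
    rwa [hcent, Subgroup.mem_bot] at this
  -- the subgroup of `T`
  let L : Subgroup T := K.comap (inj e i)
  have hLn : L.Normal := by
    constructor
    intro a ha g
    change inj e i (g * a * g⁻¹) ∈ K
    rw [map_mul, map_mul, map_inv]
    exact hn _ (inj_mem_N e i g) _ ha
  have hL : L ≠ ⊥ := by
    intro h
    have h1 : e ⟨x, hK hx⟩ i * t * (e ⟨x, hK hx⟩ i)⁻¹ * t⁻¹ ∈ L := by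
      change inj e i _ ∈ K
      rw [map_mul, ← conj_inj e ⟨x, hK hx⟩ i t, map_inv]
      have h2 : x * inj e i t * x⁻¹ * (inj e i t)⁻¹ = x * (inj e i t * x⁻¹ * (inj e i t)⁻¹) := by group
      change x * inj e i t * x⁻¹ * (inj e i t)⁻¹ ∈ K
      rw [h2]
      exact K.mul_mem hx (hn _ (inj_mem_N e i t) _ (K.inv_mem hx))
    rw [h, Subgroup.mem_bot] at h1
    apply ht
    have h3 : e ⟨x, hK hx⟩ i * t = (e ⟨x, hK hx⟩ i * t * (e ⟨x, hK hx⟩ i)⁻¹ * t⁻¹) * (t * e ⟨x, hK hx⟩ i) := by group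
    rw [h3, h1, one_mul]
  have hLt : L = ⊤ := (hs.eq_bot_or_eq_top_of_normal L hLn).resolve_left hL
  rintro _ ⟨s, rfl⟩
  have : s ∈ L := by rw [hLt]; trivial
  exact this

theorem fc_ne_bot (hs : IsSimpleGroup T) (i : Fin k) : fc e i ≠ ⊥ := by
  intro h
  have := hs.toNontrivial
  obtain ⟨t, ht⟩ := exists_ne (1 : T)
  apply ht
  apply inj_injective e i
  have h1 := inj_mem e i t
  rw [h, Subgroup.mem_bot] at h1
  rw [h1, map_one]

theorem fc_disj {i j : Fin k} (hij : i ≠ j) {x : G} (hi : x ∈ fc e i) (hj : x ∈ fc e j) : x = 1 := by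
  obtain ⟨s, rfl⟩ := hi
  obtain ⟨t, ht⟩ := hj
  have h1 := e_inj e i s
  have h2 := e_inj e j t
  have h3 : (⟨inj e j t, inj_mem_N e j t⟩ : N) = ⟨inj e i s, inj_mem_N e i s⟩ := Subtype.ext ht
  rw [h3, h1] at h2
  have h4 := congrFun h2 i
  rw [Pi.mulSingle_eq_same, Pi.mulSingle_eq_of_ne hij] at h4
  rw [h4, map_one]

theorem fc_injective (hs : IsSimpleGroup T) : Function.Injective (fc e) := by
  intro i j h
  by_contra hij
  apply fc_ne_bot e hs i
  rw [Subgroup.eq_bot_iff_forall]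
  intro x hx
  exact fc_disj e hij hx (h ▸ hx)

section perm

variable {e}

/-- an element normalising `N` permutes the factors -/
theorem exists_cj [Finite G] (hs : IsSimpleGroup T) (hna : ∃ a b : T, a * b ≠ b * a) {g : G} (hg : cj g N = N) (i : Fin k) :
    ∃ j, cj g (fc e i) = fc e j := by
  have hle : cj g (fc e i) ≤ N := (cj_mono (fc_le e i)).trans hg.le
  obtain ⟨j, hj⟩ := exists_fc_le e hs hna hle (by
    intro n hn x hx
    rw [mem_cj] at hx ⊢
    have hn' : g⁻¹ * n * g ∈ N := mem_cj.1 (hg.ge hn)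
    have h1 := conj_mem_cj (x := g⁻¹ * n * g) hx
    rw [cj_fc e hn'] at h1
    have h2 : g⁻¹ * (n * x * n⁻¹) * g = g⁻¹ * n * g * (g⁻¹ * x * g) * (g⁻¹ * n * g)⁻¹ := by group
    rw [h2]
    exact h1) (by
    rw [Ne, cj_eq_bot_iff]
    exact fc_ne_bot e hs i)
  refine ⟨j, (Subgroup.eq_of_le_of_card_ge hj ?_).symm⟩
  rw [card_cj]
  have h1 : Nat.card (fc e i) = Nat.card T := Nat.card_congr (MonoidHom.ofInjective (inj_injective e i)).toEquiv.symm
  have h2 : Nat.card (fc e j) = Nat.card T := Nat.card_congr (MonoidHom.ofInjective (inj_injective e j)).toEquiv.symm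
  rw [h1, h2]

theorem cj_N (h : EPS H N e) {g : G} (hg : g ∈ H) : cj g N = N := by
  have h1 : ∀ g ∈ H, cj g N ≤ N := by
    rintro g hg _ ⟨n, hn, rfl⟩
    exact h.nrm g hg n hn
  refine le_antisymm (h1 g hg) ?_
  have := cj_mono (x := g) (h1 g⁻¹ (H.inv_mem hg))
  rwa [cj_cj_inv] at this

theorem EPS.exists_cj [Finite G] (h : EPS H N e) {g : G} (hg : g ∈ H) (i : Fin k) : ∃ j, cj g (fc e i) = fc e j :=
  Cfsg.Agent.H758.EPX.exists_cj h.simple h.nab (cj_N h hg) i

/-- the product of the factors in a set -/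
theorem mem_comm_iSup {S : Set (Fin k)} {i : Fin k} (hi : i ∉ S) {a b : G} (ha : a ∈ fc e i) (hb : b ∈ ⨆ j ∈ S, fc e j) :
    a * b = b * a := by
  have hle : (⨆ j ∈ S, fc e j) ≤ Subgroup.centralizer ({a} : Set G) := by
    refine iSup₂_le fun j hj => ?_
    intro x hx
    rw [Subgroup.mem_centralizer_singleton_iff]
    have hij : i ≠ j := by
      rintro rfl
      exact hi hj
    exact (fc_comm e hij ha hx).symm
  exact (Subgroup.mem_centralizer_singleton_iff.mp (hle hb)).symm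

/-- `H` is transitive on the factors -/
theorem EPS.trans [Finite G] (h : EPS H N e) (i j : Fin k) : ∃ g ∈ H, cj g (fc e i) = fc e j := by
  by_contra hcon
  push Not at hcon
  let S : Set (Fin k) := {l | ∃ g ∈ H, cj g (fc e i) = fc e l}
  have hj : j ∉ S := by
    rintro ⟨g, hg, h1⟩
    exact hcon g hg h1
  have hi : i ∈ S := ⟨1, H.one_mem, cj_one _⟩
  have hle : (⨆ l ∈ S, fc e l) ≤ N := iSup₂_le fun l _ => fc_le e l
  have hnor : ∀ g ∈ H, ∀ x ∈ ⨆ l ∈ S, fc e l, g * x * g⁻¹ ∈ ⨆ l ∈ S, fc e l := by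
    intro g hg x hx
    have h1 : cj g (⨆ l ∈ S, fc e l) ≤ ⨆ l ∈ S, fc e l := by
      rw [cj_le_iff]
      refine iSup₂_le fun l hl => ?_
      rw [← cj_le_iff]
      obtain ⟨g', hg', hl'⟩ := hl
      obtain ⟨m, hm⟩ := EPS.exists_cj h hg l
      rw [hm]
      refine le_iSup₂_of_le m ⟨g * g', H.mul_mem hg hg', ?_⟩ le_rfl
      rw [cj_mul, hl', hm]
    exact h1 (conj_mem_cj hx)
  have hN : N ≤ ⨆ l ∈ S, fc e l := by
    refine h.least _ ⟨hle.trans h.le, hnor⟩ ?_
    intro h0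
    apply fc_ne_bot e h.simple i
    rw [eq_bot_iff, ← h0]
    exact le_iSup₂_of_le i hi le_rfl
  obtain ⟨a, b, hab⟩ := h.nab
  apply hab
  apply inj_injective e j
  rw [map_mul, map_mul]
  exact mem_comm_iSup hj (inj_mem e j a) (hN (inj_mem_N e j b))

theorem nin_N (h : EPS H N e) : ∀ g ∈ H, ∀ n ∈ N, g * n * g⁻¹ ∈ N := h.nrm

/-- every two-point stabiliser is transitive on the factors -/
theorem EPS.transM [Finite G] (h : EPS H N e) {x : G} (hx : x ∉ H) (i j : Fin k) :
    ∃ m ∈ H ⊓ cj x H, cj m (fc e i) = fc e j := by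
  obtain ⟨g, hg, h1⟩ := EPS.trans h i j
  obtain ⟨n, hn, m, hm, rfl⟩ := h.ep.fac h.le h.nrm h.ne hx hg
  refine ⟨m, hm, ?_⟩
  obtain ⟨l, hl⟩ := EPS.exists_cj h (mem_inf.1 hm).1 i
  rw [cj_mul, hl, cj_fc e hn] at h1
  rw [hl, h1]

/-- no two-point stabiliser contains a factor -/
theorem EPS.fc_not_le [Finite G] (h : EPS H N e) {x : G} (hx : x ∉ H) (i : Fin k) : ¬ fc e i ≤ cj x H := by
  intro hle
  apply h.ne
  apply h.ep.F1 h.le h.nrm hx
  rw [← iSup_fc e]
  refine iSup_le fun j => ?_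
  obtain ⟨m, hm, hmj⟩ := EPS.transM h hx i j
  rw [← hmj, ← cj_eq_self (mem_inf.1 hm).2]
  exact cj_mono hle

variable (e) in
/-- `M ∩ T_i` as a subgroup of `T` -/
def Kt (H : Subgroup G) (x : G) (i : Fin k) : Subgroup T := (cj x H).comap (inj e i)

theorem mem_Kt {x : G} {i : Fin k} {t : T} : t ∈ Kt e H x i ↔ inj e i t ∈ cj x H := Iff.rfl

theorem map_Kt (x : G) (i : Fin k) : (Kt e H x i).map (inj e i) = cj x H ⊓ fc e i := by
  ext g
  constructor
  · rintro ⟨t, ht, rfl⟩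
    exact ⟨ht, inj_mem e i t⟩
  · rintro ⟨h1, t, rfl⟩
    exact ⟨t, h1, rfl⟩

/-- conjugation by elements of `M` permutes the `M ∩ T_i` -/
theorem EPS.cj_K (_h : EPS H N e) {x m : G} (hm : m ∈ H ⊓ cj x H) {i j : Fin k} (hij : cj m (fc e i) = fc e j) :
    cj m (cj x H ⊓ fc e i) = cj x H ⊓ fc e j := by
  rw [cj_inf, hij, cj_eq_self (mem_inf.1 hm).2]

theorem EPS.K_ne [Finite G] (h : EPS H N e) {x : G} (hx : x ∉ H) {i : Fin k} (hi : cj x H ⊓ fc e i ≠ ⊥) (j : Fin k) :
    cj x H ⊓ fc e j ≠ ⊥ := by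
  obtain ⟨m, hm, hmj⟩ := EPS.transM h hx i j
  rw [← EPS.cj_K h hm hmj, Ne, cj_eq_bot_iff]
  exact hi

/-- the normal closure in `M` -/
def ncl (M Y : Subgroup G) : Subgroup G := ⨆ m ∈ M, cj m Y

theorem ncl_conj {M Y : Subgroup G} {m : G} (hm : m ∈ M) {z : G} (hz : z ∈ ncl M Y) : m * z * m⁻¹ ∈ ncl M Y := by
  have h1 : cj m (ncl M Y) ≤ ncl M Y := by
    rw [cj_le_iff]
    refine iSup₂_le fun a ha => ?_
    rw [← cj_le_iff, ← cj_mul]
    exact le_iSup₂_of_le (m * a) (M.mul_mem hm ha) le_rfl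
  exact h1 (conj_mem_cj hz)

theorem le_ncl (M Y : Subgroup G) : Y ≤ ncl M Y := by
  refine le_iSup₂_of_le 1 M.one_mem ?_
  rw [cj_one]

theorem ncl_le {M Y : Subgroup G} (h : Y ≤ M) : ncl M Y ≤ M := by
  refine iSup₂_le fun m hm => ?_
  rw [← cj_eq_self hm]
  exact cj_mono h

/-- the elements of `M` normalising `T_i` preserve the characteristic subgroups of `M ∩ T_i` -/
theorem cj_char [Finite G] {x m : G} (hm : m ∈ H ⊓ cj x H) {i : Fin k} (hmi : cj m (fc e i) = fc e i)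
    (Y : Subgroup (Kt e H x i)) (hY : Y.Characteristic) :
    cj m ((Y.map (Kt e H x i).subtype).map (inj e i)) ≤ (Y.map (Kt e H x i).subtype).map (inj e i) := by
  have hfin : Finite T := Finite.of_injective _ (inj_injective e i)
  have h1 : ∀ t : Kt e H x i, ∃ t' : Kt e H x i, inj e i t' = m * inj e i t * m⁻¹ := by
    intro t
    have h2 : m * inj e i t * m⁻¹ ∈ fc e i := by
      rw [← hmi]
      exact conj_mem_cj (inj_mem e i t)
    obtain ⟨t', ht'⟩ := h2
    refine ⟨⟨t', ?_⟩, ht'⟩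
    rw [mem_Kt, ht']
    exact (cj x H).mul_mem ((cj x H).mul_mem (mem_inf.1 hm).2 t.2) ((cj x H).inv_mem (mem_inf.1 hm).2)
  choose f hf using h1
  let F : Kt e H x i →* Kt e H x i :=
    { toFun := f
      map_one' := by
        apply Subtype.ext
        apply inj_injective e i
        rw [hf]
        simp
      map_mul' := fun a b => by
        apply Subtype.ext
        apply inj_injective e i
        rw [hf, Subgroup.coe_mul, Subgroup.coe_mul, map_mul, map_mul, hf, hf]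
        group }
  have hF : Function.Injective F := by
    intro a b hab
    have h2 : inj e i (f a) = inj e i (f b) := congrArg (fun z : Kt e H x i => inj e i z) hab
    rw [hf, hf] at h2
    exact Subtype.ext (inj_injective e i (mul_left_cancel (mul_right_cancel h2)))
  let τ : MulAut (Kt e H x i) := MulEquiv.ofBijective F (Finite.injective_iff_bijective.1 hF)
  have hτ : Y.map τ.toMonoidHom = Y := Subgroup.characteristic_iff_map_eq.1 hY τ
  rintro _ ⟨_, ⟨_, ⟨y, hy, rfl⟩, rfl⟩, rfl⟩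
  have h2 : τ y ∈ Y := by
    rw [← hτ]
    exact ⟨y, hy, rfl⟩
  exact ⟨_, ⟨τ y, h2, rfl⟩, hf y⟩

/-- **local subgroups**: if `M ∩ T_i ≠ 1` then it contains the normaliser (in `T_i`) of all its characteristic subgroups
`≠ 1` -/
theorem EPS.norm_le [Finite G] (h : EPS H N e) {x : G} (hx : x ∉ H) (i : Fin k) (Y : Subgroup (Kt e H x i))
    (hY : Y.Characteristic) (hY0 : Y ≠ ⊥) {t : T}
    (ht : t ∈ normalizer ((Y.map (Kt e H x i).subtype : Subgroup T) : Set T)) : t ∈ Kt e H x i := by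
  set M := H ⊓ cj x H with hM
  set Y₁ : Subgroup G := (Y.map (Kt e H x i).subtype).map (inj e i) with hY₁
  have hY₁K : Y₁ ≤ cj x H ⊓ fc e i := by
    rw [← map_Kt]
    apply Subgroup.map_mono
    rintro _ ⟨y, _, rfl⟩
    exact y.2
  have hY₁M : Y₁ ≤ M := fun y hy => ⟨(fc_le e i).trans h.le (hY₁K hy).2, (hY₁K hy).1⟩
  -- characteristic
  have hch : ∀ m ∈ M, cj m (fc e i) = fc e i → cj m Y₁ ≤ Y₁ := fun m hm hmi => cj_char hm hmi Y hY
  rw [mem_Kt]
  have hin : inj e i t ∈ H := h.le (inj_mem_N e i t)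
  refine h.ep.norm hx (X := ncl M Y₁) (ncl_le hY₁M) (fun m hm z hz => ncl_conj hm hz) ?_ hin ?_
  · intro h0
    have h1 : Y₁ = ⊥ := by
      rw [eq_bot_iff, ← h0]
      exact le_ncl _ _
    rw [hY₁, Subgroup.map_eq_bot_iff_of_injective _ (inj_injective e i),
      Subgroup.map_eq_bot_iff_of_injective _ (Kt e H x i).subtype_injective] at h1
    exact hY0 h1
  · intro z hz
    have h2 : cj (inj e i t) (ncl M Y₁) ≤ ncl M Y₁ := by
      rw [cj_le_iff]
      refine iSup₂_le fun m hm => ?_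
      rw [← cj_le_iff]
      obtain ⟨j, hj⟩ := EPS.exists_cj h (mem_inf.1 hm).1 i
      by_cases hij : i = j
      · subst hij
        refine (cj_mono (hch m hm hj)).trans (le_trans ?_ (le_ncl _ _))
        rintro _ ⟨_, ⟨y, hy, rfl⟩, rfl⟩
        refine ⟨t * y * t⁻¹, (mem_normalizer_iff.mp ht y).mp hy, ?_⟩
        simp [map_mul]
      · have h3 : cj (inj e i t) (cj m Y₁) ≤ cj m Y₁ := by
          rintro _ ⟨z, hz, rfl⟩
          have hz' : z ∈ fc e j := by
            rw [← hj]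
            exact cj_mono (hY₁K.trans inf_le_right) hz
          have h4 := fc_comm e hij (inj_mem e i t) hz'
          have h5 : (MulAut.conj (inj e i t)).toMonoidHom z = z := by
            change inj e i t * z * (inj e i t)⁻¹ = z
            rw [h4]; group
          rw [h5]
          exact hz
        exact h3.trans (le_iSup₂_of_le m hm le_rfl)
    exact h2 (conj_mem_cj hz)

theorem EPS.Kt_ne [Finite G] (h : EPS H N e) {x : G} (hx : x ∉ H) {i : Fin k} (hi : Kt e H x i ≠ ⊥) (j : Fin k) :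
    Kt e H x j ≠ ⊥ := by
  intro h0
  have h1 : cj x H ⊓ fc e i ≠ ⊥ := by
    rw [← map_Kt, Ne, Subgroup.map_eq_bot_iff_of_injective _ (inj_injective e i)]
    exact hi
  apply EPS.K_ne h hx h1 j
  rw [← map_Kt, h0, Subgroup.map_bot]

theorem EPS.Kt_ne_top [Finite G] (h : EPS H N e) {x : G} (hx : x ∉ H) (i : Fin k) : Kt e H x i ≠ ⊤ := by
  intro h0
  apply EPS.fc_not_le h hx i
  rintro _ ⟨t, rfl⟩
  have : t ∈ Kt e H x i := by rw [h0]; trivial
  exact this

/-- the product of the `M ∩ T_i` -/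
theorem EPS.mem_of_norm [Finite G] (h : EPS H N e) {x : G} (hx : x ∉ H) {i : Fin k} (hi : Kt e H x i ≠ ⊥) {g : G}
    (hg : g ∈ H) (hn : ∀ z ∈ ⨆ j, (cj x H ⊓ fc e j), g * z * g⁻¹ ∈ ⨆ j, (cj x H ⊓ fc e j)) : g ∈ cj x H := by
  refine h.ep.norm hx (X := ⨆ j, (cj x H ⊓ fc e j)) ?_ ?_ ?_ hg hn
  · exact iSup_le fun j => le_inf (inf_le_right.trans ((fc_le e j).trans h.le)) inf_le_left
  · intro m hm z hz
    have h1 : cj m (⨆ j, (cj x H ⊓ fc e j)) ≤ ⨆ j, (cj x H ⊓ fc e j) := by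
      rw [cj_le_iff]
      refine iSup_le fun j => ?_
      rw [← cj_le_iff]
      obtain ⟨l, hl⟩ := EPS.exists_cj h (mem_inf.1 hm).1 j
      rw [EPS.cj_K h hm hl]
      exact le_iSup (fun j => cj x H ⊓ fc e j) l
    exact h1 (conj_mem_cj hz)
  · intro h0
    apply hi
    have h1 : cj x H ⊓ fc e i = ⊥ := by
      rw [eq_bot_iff, ← h0]
      exact le_iSup (fun j => cj x H ⊓ fc e j) i
    rwa [← map_Kt, Subgroup.map_eq_bot_iff_of_injective _ (inj_injective e i)] at h1

/-- `M` is determined by the `M ∩ T_i` -/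
theorem EPS.eq_of_Kt [Finite G] (h : EPS H N e) {x y : G} (hx : x ∉ H) (hy : y ∉ H) {i : Fin k} (hi : Kt e H x i ≠ ⊥)
    (hxy : ∀ j, Kt e H x j = Kt e H y j) : H ⊓ cj x H = H ⊓ cj y H := by
  have key : ∀ x y : G, x ∉ H → y ∉ H → Kt e H x i ≠ ⊥ → (∀ j, Kt e H x j = Kt e H y j) → H ⊓ cj x H ≤ H ⊓ cj y H := by
    intro x y hx hy hi hxy m hm
    refine ⟨(mem_inf.1 hm).1, EPS.mem_of_norm h hy (i := i) (hxy i ▸ hi) (mem_inf.1 hm).1 ?_⟩
    have h1 : (⨆ j, (cj y H ⊓ fc e j)) = ⨆ j, (cj x H ⊓ fc e j) := by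
      congr 1
      funext j
      rw [← map_Kt, ← map_Kt, hxy j]
    rw [h1]
    intro z hz
    have h2 : cj m (⨆ j, (cj x H ⊓ fc e j)) ≤ ⨆ j, (cj x H ⊓ fc e j) := by
      rw [cj_le_iff]
      refine iSup_le fun j => ?_
      rw [← cj_le_iff]
      obtain ⟨l, hl⟩ := EPS.exists_cj h (mem_inf.1 hm).1 j
      rw [EPS.cj_K h hm hl]
      exact le_iSup (fun j => cj x H ⊓ fc e j) l
    exact h2 (conj_mem_cj hz)
  exact le_antisymm (key x y hx hy hi hxy) (key y x hy hx (hxy i ▸ hi) fun j => (hxy j).symm)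

end perm

end Cfsg.Agent.H758.EPX
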