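import Mathlib

/-!
# Subdirect subgroups of `T^k`, `T` nonabelian simple

`D ≤ T^k` with all projections surjective. `Rel D i j` : `d i = 1 → d j = 1` on `D`.
* `exists_aut` : if `Rel D i j` then `d j = α (d i)` on `D` for some automorphism `α`;
* `surj_of_not_rel` : `D` maps onto `T^R` for a set `R` of pairwise unrelated indices;
* `exists_code` : `D` is `{f | f i = α i (f (r i))}`, where `r i` is the least index related to `i`, `α i = 1` if `r i = i`;
  if `D ∩ T_i = 1` for all `i` then at most half of the indices satisfy `r i = i`.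
-/

set_option autoImplicit false
set_option linter.unusedSectionVars false

namespace Cfsg.Agent.H758.EPX.Sub

variable {T : Type*} [Group T] [Finite T] {k : ℕ}

/-- subdirect subgroups -/
def Sd (D : Subgroup (Fin k → T)) : Prop := ∀ (i : Fin k) (t : T), ∃ d ∈ D, d i = t

/-- the kernel of the `i`-th projection is contained in that of the `j`-th -/
def Rel (D : Subgroup (Fin k → T)) (i j : Fin k) : Prop := ∀ d ∈ D, d i = 1 → d j = 1

theorem Rel.refl (D : Subgroup (Fin k → T)) (i : Fin k) : Rel D i i := fun _ _ h => h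

theorem Rel.trans {D : Subgroup (Fin k → T)} {i j l : Fin k} (h1 : Rel D i j) (h2 : Rel D j l) : Rel D i l :=
  fun d hd h => h2 d hd (h1 d hd h)

/-- related coordinates are linked by an automorphism -/
theorem exists_aut {D : Subgroup (Fin k → T)} (hD : Sd D) {i j : Fin k} (h : Rel D i j) :
    ∃ α : MulAut T, ∀ d ∈ D, d j = α (d i) := by
  classical
  choose f hf hfi using hD i
  have key : ∀ d ∈ D, d j = f (d i) j := by
    intro d hd
    have h1 := h (d * (f (d i))⁻¹) (D.mul_mem hd (D.inv_mem (hf _))) (by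
      rw [Pi.mul_apply, Pi.inv_apply, hfi, mul_inv_cancel])
    rw [Pi.mul_apply, Pi.inv_apply] at h1
    exact mul_inv_eq_one.mp h1
  let φ : T →* T :=
    { toFun := fun t => f t j
      map_one' := by
        have := key 1 D.one_mem
        rw [Pi.one_apply, Pi.one_apply] at this
        exact this.symm
      map_mul' := fun a b => by
        have := key (f a * f b) (D.mul_mem (hf a) (hf b))
        rw [Pi.mul_apply, Pi.mul_apply, hfi, hfi] at this
        exact this.symm }
  have hφ : Function.Surjective φ := by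
    intro t
    obtain ⟨d, hd, rfl⟩ := hD j t
    exact ⟨d i, (key d hd).symm⟩
  exact ⟨MulEquiv.ofBijective φ (Finite.surjective_iff_bijective.1 hφ), fun d hd => key d hd⟩

theorem Rel.symm {D : Subgroup (Fin k → T)} (hD : Sd D) {i j : Fin k} (h : Rel D i j) : Rel D j i := by
  obtain ⟨α, hα⟩ := exists_aut hD h
  intro d hd hdj
  rw [hα d hd, map_eq_one_iff α α.injective] at hdj
  exact hdj

/-- commuting normal subgroups of a nonabelian simple group -/
theorem bot_of_comm (hs : IsSimpleGroup T) (hna : ∃ a b : T, a * b ≠ b * a) (A B : Subgroup T) [A.Normal] [B.Normal]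
    (hAB : ∀ a ∈ A, ∀ b ∈ B, a * b = b * a) : A = ⊥ ∨ B = ⊥ := by
  rcases hs.eq_bot_or_eq_top_of_normal A inferInstance with h | h
  · exact Or.inl h
  rcases hs.eq_bot_or_eq_top_of_normal B inferInstance with h' | h'
  · exact Or.inr h'
  exfalso
  obtain ⟨a, b, hab⟩ := hna
  exact hab (hAB a (h ▸ Subgroup.mem_top a) b (h' ▸ Subgroup.mem_top b))

/-- the image under the `a`-th projection of the elements of `D` trivial on `S` -/
def im (D : Subgroup (Fin k → T)) (S : Finset (Fin k)) (a : Fin k) : Subgroup T where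
  carrier := {t | ∃ d ∈ D, (∀ i ∈ S, d i = 1) ∧ d a = t}
  one_mem' := ⟨1, D.one_mem, fun _ _ => rfl, rfl⟩
  mul_mem' := by
    rintro _ _ ⟨c, hc, hc1, rfl⟩ ⟨d, hd, hd1, rfl⟩
    exact ⟨c * d, D.mul_mem hc hd, fun i hi => by rw [Pi.mul_apply, hc1 i hi, hd1 i hi, one_mul], rfl⟩
  inv_mem' := by
    rintro _ ⟨c, hc, hc1, rfl⟩
    exact ⟨c⁻¹, D.inv_mem hc, fun i hi => by rw [Pi.inv_apply, hc1 i hi, inv_one], rfl⟩

theorem im_normal {D : Subgroup (Fin k → T)} (hD : Sd D) (S : Finset (Fin k)) (a : Fin k) : (im D S a).Normal := by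
  constructor
  rintro _ ⟨c, hc, hc1, rfl⟩ g
  obtain ⟨d, hd, rfl⟩ := hD a g
  refine ⟨d * c * d⁻¹, D.mul_mem (D.mul_mem hd hc) (D.inv_mem hd), fun i hi => ?_, rfl⟩
  rw [Pi.mul_apply, Pi.mul_apply, hc1 i hi, Pi.inv_apply, mul_one, mul_inv_cancel]

theorem im_ne_bot (hs : IsSimpleGroup T) (hna : ∃ a b : T, a * b ≠ b * a) {D : Subgroup (Fin k → T)} (hD : Sd D)
    (S : Finset (Fin k)) (a : Fin k) (hS : ∀ i ∈ S, ¬ Rel D i a) : im D S a ≠ ⊥ := by
  classical
  induction S using Finset.induction with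
  | empty =>
    intro h
    have := hs.toNontrivial
    obtain ⟨t, ht⟩ := exists_ne (1 : T)
    apply ht
    rw [← Subgroup.mem_bot, ← h]
    obtain ⟨d, hd, hda⟩ := hD a t
    exact ⟨d, hd, fun i hi => absurd hi (Finset.notMem_empty i), hda⟩
  | insert b S _ ih =>
    intro h
    have hN1 := im_normal hD {b} a
    have hN2 := im_normal hD S a
    rcases bot_of_comm hs hna (im D {b} a) (im D S a) (by
      rintro _ ⟨c, hc, hc1, rfl⟩ _ ⟨d, hd, hd1, rfl⟩
      have h1 : (c * d * c⁻¹ * d⁻¹) a ∈ im D (insert b S) a := by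
        refine ⟨c * d * c⁻¹ * d⁻¹, D.mul_mem (D.mul_mem (D.mul_mem hc hd) (D.inv_mem hc)) (D.inv_mem hd), ?_, rfl⟩
        intro i hi
        rw [Finset.mem_insert] at hi
        rcases hi with rfl | hi
        · simp [Pi.mul_apply, Pi.inv_apply, hc1 i (Finset.mem_singleton_self i)]
        · simp [Pi.mul_apply, Pi.inv_apply, hd1 i hi]
      rw [h, Subgroup.mem_bot] at h1
      simp only [Pi.mul_apply, Pi.inv_apply] at h1
      have h2 : c a * d a = (c a * d a * (c a)⁻¹ * (d a)⁻¹) * (d a * c a) := by group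
      rw [h2, h1, one_mul]) with h' | h'
    · apply hS b (Finset.mem_insert_self b S)
      intro d hd hdb
      rw [← Subgroup.mem_bot, ← h']
      refine ⟨d, hd, ?_, rfl⟩
      intro i hi
      rw [Finset.mem_singleton] at hi
      rw [hi, hdb]
    · exact ih (fun i hi => hS i (Finset.mem_insert_of_mem hi)) h'

/-- `D` maps onto `T^S` -/
theorem surj_of_not_rel (hs : IsSimpleGroup T) (hna : ∃ a b : T, a * b ≠ b * a) {D : Subgroup (Fin k → T)} (hD : Sd D)
    (S : Finset (Fin k)) (hS : ∀ i ∈ S, ∀ j ∈ S, i ≠ j → ¬ Rel D i j) (f : Fin k → T) :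
    ∃ d ∈ D, ∀ i ∈ S, d i = f i := by
  classical
  induction S using Finset.induction with
  | empty => exact ⟨1, D.one_mem, fun i hi => absurd hi (Finset.notMem_empty i)⟩
  | insert a S ha ih =>
    obtain ⟨d, hd, hdS⟩ := ih (fun i hi j hj => hS i (Finset.mem_insert_of_mem hi) j (Finset.mem_insert_of_mem hj))
    have hne := im_ne_bot hs hna hD S a (fun i hi => hS i (Finset.mem_insert_of_mem hi) a (Finset.mem_insert_self a S)
      (fun h => ha (h ▸ hi)))
    have htop : im D S a = ⊤ := (hs.eq_bot_or_eq_top_of_normal _ (im_normal hD S a)).resolve_left hne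
    have hmem : (d a)⁻¹ * f a ∈ im D S a := by rw [htop]; trivial
    obtain ⟨c, hc, hc1, hca⟩ := hmem
    refine ⟨d * c, D.mul_mem hd hc, fun i hi => ?_⟩
    rw [Finset.mem_insert] at hi
    rcases hi with rfl | hi
    · rw [Pi.mul_apply, hca, mul_inv_cancel_left]
    · rw [Pi.mul_apply, hc1 i hi, mul_one, hdS i hi]

open Classical in
/-- the least index related to `i` -/
noncomputable def rep (D : Subgroup (Fin k → T)) (i : Fin k) : Fin k :=
  (Finset.univ.filter fun j => Rel D j i).min' ⟨i, by simp [Rel.refl]⟩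

theorem rep_rel (D : Subgroup (Fin k → T)) (i : Fin k) : Rel D (rep D i) i := by
  classical
  have := Finset.min'_mem (Finset.univ.filter fun j => Rel D j i) ⟨i, by simp [Rel.refl]⟩
  exact (Finset.mem_filter.mp this).2

theorem rep_le (D : Subgroup (Fin k → T)) {i j : Fin k} (h : Rel D j i) : rep D i ≤ j := by
  classical
  exact Finset.min'_le _ _ (by simp [h])

theorem rep_eq {D : Subgroup (Fin k → T)} (hD : Sd D) {i j : Fin k} (h : Rel D i j) : rep D i = rep D j := by
  apply le_antisymm
  · exact rep_le D ((rep_rel D j).trans (h.symm hD))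
  · exact rep_le D ((rep_rel D i).trans h)

theorem rep_rep {D : Subgroup (Fin k → T)} (hD : Sd D) (i : Fin k) : rep D (rep D i) = rep D i :=
  rep_eq hD (rep_rel D i)

/-- **the structure of a subdirect subgroup** -/
theorem exists_code (hs : IsSimpleGroup T) (hna : ∃ a b : T, a * b ≠ b * a) {D : Subgroup (Fin k → T)} (hD : Sd D) :
    ∃ α : Fin k → MulAut T, (∀ i, rep D i = i → α i = 1) ∧
      ∀ f : Fin k → T, f ∈ D ↔ ∀ i, f i = α i (f (rep D i)) := by
  classical
  choose β hβ using fun i => exists_aut hD (rep_rel D i)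
  let α : Fin k → MulAut T := fun i => if rep D i = i then 1 else β i
  have hα : ∀ i, ∀ d ∈ D, d i = α i (d (rep D i)) := by
    intro i d hd
    by_cases hi : rep D i = i
    · simp only [α, if_pos hi]
      rw [hi]
      rfl
    · simp only [α, if_neg hi]
      exact hβ i d hd
  refine ⟨α, fun i hi => by simp only [α, if_pos hi], fun f => ⟨fun hf i => hα i f hf, fun hf => ?_⟩⟩
  obtain ⟨d, hd, hdS⟩ := surj_of_not_rel hs hna hD (Finset.univ.filter fun i => rep D i = i) (by
    intro i hi j hj hij hrel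
    apply hij
    rw [← (Finset.mem_filter.mp hi).2, ← (Finset.mem_filter.mp hj).2]
    exact rep_eq hD hrel) f
  have : f = d := by
    funext i
    rw [hf i, hα i d hd, hdS (rep D i) (by simp [rep_rep hD])]
  rw [this]
  exact hd

/-- if `D` meets the factors trivially, no class is a singleton -/
theorem exists_ne_rep (hs : IsSimpleGroup T) (hna : ∃ a b : T, a * b ≠ b * a) {D : Subgroup (Fin k → T)} (hD : Sd D)
    (hT : ∀ (i : Fin k) (t : T), Pi.mulSingle i t ∈ D → t = 1) {i : Fin k} (hi : rep D i = i) :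
    ∃ j, j ≠ i ∧ rep D j = i := by
  classical
  by_contra hcon
  push Not at hcon
  have := hs.toNontrivial
  obtain ⟨t, ht⟩ := exists_ne (1 : T)
  apply ht
  apply hT i t
  obtain ⟨α, _, hα⟩ := exists_code hs hna hD
  rw [hα]
  intro j
  by_cases hj : j = i
  · subst hj
    obtain ⟨d, hd, hdj⟩ := hD j t
    have h1 := (hα d).mp hd j
    rw [hi, hdj] at h1
    rw [hi, Pi.mulSingle_eq_same]
    exact h1
  · have h2 : rep D j ≠ i := hcon j hj
    rw [Pi.mulSingle_eq_of_ne hj, Pi.mulSingle_eq_of_ne h2, map_one]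

end Cfsg.Agent.H758.EPX.Sub
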